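import Mathlib

/-! Averages over a conjugacy class in a multiply transitive permutation group. -/
set_option autoImplicit false
set_option linter.unusedSectionVars false
set_option linter.unusedVariables false

namespace H10.PF
open Finset Equiv MulAction

variable {Ω : Type*} [Fintype Ω] [DecidableEq Ω]

open Classical in
noncomputable def SP (P : Subgroup (Perm Ω)) : Finset (Perm Ω) := univ.filter (· ∈ P)

theorem mSP {P : Subgroup (Perm Ω)} {g : Perm Ω} : g ∈ SP P ↔ g ∈ P := by simp [SP]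

theorem SP_pos (P : Subgroup (Perm Ω)) : (0 : ℚ) < (SP P).card := by
  exact_mod_cast card_pos.mpr ⟨1, mSP.mpr P.one_mem⟩

noncomputable def Ex (P : Subgroup (Perm Ω)) (x : Perm Ω) (F : Perm Ω → ℚ) : ℚ :=
  (∑ g ∈ SP P, F (g * x * g⁻¹)) / (SP P).card

variable {P : Subgroup (Perm Ω)} {x : Perm Ω}

theorem Ex_add (F G : Perm Ω → ℚ) : Ex P x (fun y => F y + G y) = Ex P x F + Ex P x G := by
  simp [Ex, sum_add_distrib, add_div]

theorem Ex_sub (F G : Perm Ω → ℚ) : Ex P x (fun y => F y - G y) = Ex P x F - Ex P x G := by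
  simp [Ex, sum_sub_distrib, sub_div]

theorem Ex_mul (c : ℚ) (F : Perm Ω → ℚ) : Ex P x (fun y => c * F y) = c * Ex P x F := by
  simp [Ex, ← mul_sum, mul_div_assoc]

theorem Ex_const (c : ℚ) : Ex P x (fun _ => c) = c := by
  have := (SP_pos P).ne'
  simp [Ex]; field_simp

theorem Ex_sum {ι : Type*} (s : Finset ι) (F : ι → Perm Ω → ℚ) :
    Ex P x (fun y => ∑ i ∈ s, F i y) = ∑ i ∈ s, Ex P x (F i) := by
  simp only [Ex]; rw [sum_comm, sum_div]

theorem Ex_nonneg {F : Perm Ω → ℚ} (h : ∀ g ∈ P, 0 ≤ F (g * x * g⁻¹)) : 0 ≤ Ex P x F :=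
  div_nonneg (sum_nonneg fun g hg => h g (mSP.mp hg)) (SP_pos P).le

theorem Ex_congr {F G : Perm Ω → ℚ} (h : ∀ y, F y = G y) : Ex P x F = Ex P x G := by
  rw [funext h]

theorem avg {Y : Type*} [Fintype Y] [MulAction (Perm Ω) Y] (tr : ∀ s t : Y, ∃ g ∈ P, g • s = t)
    (t : Y) (B : Y → Prop) [DecidablePred B] :
    (∑ g ∈ SP P, if B (g⁻¹ • t) then (1 : ℚ) else 0) * Fintype.card Y
      = (SP P).card * (univ.filter B).card := by
  have h1 : ∀ s : Y, (∑ g ∈ SP P, if B (g⁻¹ • s) then (1 : ℚ) else 0)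
      = ∑ g ∈ SP P, if B (g⁻¹ • t) then (1 : ℚ) else 0 := by
    intro s
    obtain ⟨h, hP, rfl⟩ := tr s t
    refine sum_bij (fun g _ => h * g) (fun g hg => mSP.mpr (P.mul_mem hP (mSP.mp hg)))
      (fun a _ b _ e => mul_left_cancel e)
      (fun b hb => ⟨h⁻¹ * b, mSP.mpr (P.mul_mem (P.inv_mem hP) (mSP.mp hb)), by group⟩) ?_
    intro g _
    rw [mul_inv_rev, mul_smul, inv_smul_smul]
  have h2 : ∀ g : Perm Ω, (∑ s : Y, if B (g⁻¹ • s) then (1 : ℚ) else 0) = (univ.filter B).card := by
    intro g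
    rw [← sum_boole]
    exact Fintype.sum_equiv (MulAction.toPerm g⁻¹) _ _ (fun s => by simp)
  calc _ = ∑ s : Y, ∑ g ∈ SP P, if B (g⁻¹ • s) then (1 : ℚ) else 0 := by
        simp only [h1]; simp [mul_comm]
    _ = _ := by rw [sum_comm]; simp only [h2]; simp

theorem cj_app (g x : Perm Ω) (a b : Ω) : (g * x * g⁻¹) a = b ↔ x (g⁻¹ a) = g⁻¹ b := by
  rw [Perm.mul_apply, Perm.mul_apply, Perm.eq_inv_iff_eq]

theorem avgE {k : ℕ} (hk : IsMultiplyPretransitive P Ω k) (hn : k ≤ Fintype.card Ω) (t : Fin k ↪ Ω)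
    (R : Perm Ω → (Fin k ↪ Ω) → Prop) [∀ y, DecidablePred (R y)] (hR : ∀ g : Perm Ω, R (g * x * g⁻¹) t ↔ R x (g⁻¹ • t)) :
    Ex P x (fun y => if R y t then 1 else 0)
      = (univ.filter (R x)).card / ((Fintype.card Ω).descFactorial k : ℚ) := by
  have tr : ∀ s t : Fin k ↪ Ω, ∃ g ∈ P, g • s = t := fun s t => by
    obtain ⟨g, hg⟩ := hk.exists_smul_eq s t
    exact ⟨g, g.2, hg⟩
  have h := avg tr t (R x)
  rw [Fintype.card_embedding_eq, Fintype.card_fin] at h
  have hp : (0 : ℚ) < (Fintype.card Ω).descFactorial k := by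
    exact_mod_cast Nat.descFactorial_pos.mpr hn
  have := SP_pos P
  simp only [Ex, hR]
  rw [div_eq_div_iff this.ne' hp.ne']
  convert h using 1
  ring

/-- indicator that `y` fixes `U` pointwise -/
def J (y : Perm Ω) (U : Finset Ω) : ℚ := if ∀ w ∈ U, y w = w then 1 else 0
/-- indicator that `y` maps `a` to `b` -/
def M (y : Perm Ω) (a b : Ω) : ℚ := if y a = b then 1 else 0

theorem J_mul (y : Perm Ω) (U V : Finset Ω) : J y U * J y V = J y (U ∪ V) := by
  unfold J
  by_cases h1 : ∀ w ∈ U, y w = w <;> by_cases h2 : ∀ w ∈ V, y w = w <;>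
    simp only [mem_union, or_imp, forall_and, h1, h2, if_true, if_false] <;> simp_all

theorem J_nonneg (y : Perm Ω) (U : Finset Ω) : 0 ≤ J y U := by unfold J; split_ifs <;> norm_num
theorem M_nonneg (y : Perm Ω) (a b : Ω) : 0 ≤ M y a b := by unfold M; split_ifs <;> norm_num

/-- the probability of fixing `k` given points -/
noncomputable def pr (x : Perm Ω) (k : ℕ) : ℚ :=
  ((x.supportᶜ).card.descFactorial k : ℚ) / ((Fintype.card Ω).descFactorial k : ℚ)

theorem eF (h4 : IsMultiplyPretransitive P Ω 4) (hn : 4 ≤ Fintype.card Ω) (U : Finset Ω)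
    (hU : U.card ≤ 4) : Ex P x (fun y => J y U) = pr x U.card := by
  have hk : IsMultiplyPretransitive P Ω U.card :=
    isMultiplyPretransitive_of_le hU (by rwa [Nat.card_eq_fintype_card])
  let t : Fin U.card ↪ Ω := U.equivFin.symm.toEmbedding.trans (Function.Embedding.subtype _)
  have h := avgE (x := x) hk (hU.trans hn) t (fun y e => ∀ i, y (e i) = e i) (fun g => by
    simp only [cj_app, Function.Embedding.smul_apply, Perm.smul_def])
  have e1 : ∀ y : Perm Ω, J y U = if ∀ i, y (t i) = t i then 1 else 0 := fun y => by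
    unfold J
    congr 1
    apply propext
    constructor
    · intro h i; exact h _ (U.equivFin.symm i).2
    · intro h w hw
      simpa [t] using h (U.equivFin ⟨w, hw⟩)
  have e2 : (univ.filter fun e : Fin U.card ↪ Ω => ∀ i, x (e i) = e i).card
      = (x.supportᶜ).card.descFactorial U.card := by
    rw [← Fintype.card_subtype]
    have := Fintype.card_congr (Equiv.codRestrict (Fin U.card) ((x.supportᶜ : Finset Ω) : Set Ω))
    rw [Fintype.card_embedding_eq, Fintype.card_fin] at this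
    simp only [coe_sort_coe, Fintype.card_coe] at this
    rw [← this]
    exact Fintype.card_congr (Equiv.subtypeEquivRight fun e => by simp)
  rw [Ex_congr e1, h, pr, e2]

def em3 (a b c : Ω) (h1 : a ≠ b) (h2 : a ≠ c) (h3 : b ≠ c) : Fin 3 ↪ Ω :=
  ⟨![a, b, c], by intro i j; fin_cases i <;> fin_cases j <;> simp_all [eq_comm]⟩

def em4 (a b c d : Ω) (h1 : a ≠ b) (h2 : a ≠ c) (h3 : a ≠ d) (h4 : b ≠ c) (h5 : b ≠ d) (h6 : c ≠ d) :
    Fin 4 ↪ Ω :=
  ⟨![a, b, c, d], by intro i j; fin_cases i <;> fin_cases j <;> simp_all [eq_comm]⟩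

section
variable {a b c d : Ω} {h1 : a ≠ b} {h2 : a ≠ c} {h3 : a ≠ d} {h4 : b ≠ c} {h5 : b ≠ d} {h6 : c ≠ d}
@[simp] theorem em30 : em3 a b c h1 h2 h4 0 = a := rfl
@[simp] theorem em31 : em3 a b c h1 h2 h4 1 = b := rfl
@[simp] theorem em32 : em3 a b c h1 h2 h4 2 = c := rfl
@[simp] theorem em40 : em4 a b c d h1 h2 h3 h4 h5 h6 0 = a := rfl
@[simp] theorem em41 : em4 a b c d h1 h2 h3 h4 h5 h6 1 = b := rfl
@[simp] theorem em42 : em4 a b c d h1 h2 h3 h4 h5 h6 2 = c := rfl
@[simp] theorem em43 : em4 a b c d h1 h2 h3 h4 h5 h6 3 = d := rfl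
end

theorem ite_mul_ite (p q : Prop) [Decidable p] [Decidable q] [Decidable (p ∧ q)] :
    (if p then (1 : ℚ) else 0) * (if q then 1 else 0) = if p ∧ q then 1 else 0 := by
  by_cases p <;> by_cases q <;> simp [*]

theorem eFM (h4 : IsMultiplyPretransitive P Ω 4) (hn : 4 ≤ Fintype.card Ω) {a b c : Ω}
    (h1 : a ≠ b) (h2 : a ≠ c) (h3 : b ≠ c) : Ex P x (fun y => J y {a} * M y b c)
      = (x.supportᶜ).card * x.support.card / ((Fintype.card Ω).descFactorial 3 : ℚ) := by
  have hk : IsMultiplyPretransitive P Ω 3 :=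
    isMultiplyPretransitive_of_le (by norm_num : 3 ≤ 4) (by rwa [Nat.card_eq_fintype_card])
  have h := avgE (x := x) hk (by omega) (em3 a b c h1 h2 h3)
    (fun y e => y (e 0) = e 0 ∧ y (e 1) = e 2) (fun g => by
    simp only [cj_app, Function.Embedding.smul_apply, Perm.smul_def])
  have e2 : (univ.filter fun e : Fin 3 ↪ Ω => x (e 0) = e 0 ∧ x (e 1) = e 2).card
      = (x.supportᶜ ×ˢ x.support).card := by
    refine card_nbij (fun e => (e 0, e 1)) ?_ ?_ ?_
    · intro e he
      simp only [coe_filter, mem_univ, true_and, Set.mem_ofPred_eq] at he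
      simp only [coe_product, Set.mem_prod, mem_coe, mem_compl, Perm.mem_support, he.1, he.2]
      simp
    · intro e he e' he' h
      simp only [coe_filter, mem_univ, true_and, Set.mem_ofPred_eq, Prod.mk.injEq] at he he' h
      ext i; fin_cases i
      · exact h.1
      · exact h.2
      · simp [← he.2, ← he'.2, h.2]
    · rintro ⟨u, v⟩ h
      simp only [coe_product, Set.mem_prod, mem_coe, mem_compl, Perm.mem_support, not_not] at h
      refine ⟨em3 u v (x v) (by rintro rfl; exact h.2 h.1)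
        (fun e => h.2 (by rw [← e]; exact x.injective (h.1.trans e))) (Ne.symm h.2), ?_, rfl⟩
      simp [h.1]
  rw [e2, card_product] at h
  push_cast at h
  rw [← h]
  refine Ex_congr fun y => ?_
  simp [J, M]
  split_ifs <;> simp_all

theorem eFFM (h4 : IsMultiplyPretransitive P Ω 4) (hn : 4 ≤ Fintype.card Ω) {a b c d : Ω}
    (h1 : a ≠ b) (h2 : a ≠ c) (h3 : a ≠ d) (h5 : b ≠ c) (h6 : b ≠ d) (h7 : c ≠ d) :
    Ex P x (fun y => J y {a, b} * M y c d)
      = (x.supportᶜ).card * ((x.supportᶜ).card - 1) * x.support.card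
        / ((Fintype.card Ω).descFactorial 4 : ℚ) := by
  have h := avgE (x := x) h4 hn (em4 a b c d h1 h2 h3 h5 h6 h7)
    (fun y e => y (e 0) = e 0 ∧ y (e 1) = e 1 ∧ y (e 2) = e 3) (fun g => by
    simp only [cj_app, Function.Embedding.smul_apply, Perm.smul_def])
  have e2 : (univ.filter fun e : Fin 4 ↪ Ω => x (e 0) = e 0 ∧ x (e 1) = e 1 ∧ x (e 2) = e 3).card
      = ((x.supportᶜ).offDiag ×ˢ x.support).card := by
    refine card_nbij (fun e => ((e 0, e 1), e 2)) ?_ ?_ ?_
    · intro e he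
      simp only [coe_filter, mem_univ, true_and, Set.mem_ofPred_eq] at he
      simp only [coe_product, Set.mem_prod, mem_coe, mem_offDiag, mem_compl, Perm.mem_support,
        he.1, he.2.1, he.2.2]
      simp
    · intro e he e' he' h
      simp only [coe_filter, mem_univ, true_and, Set.mem_ofPred_eq, Prod.mk.injEq] at he he' h
      ext i; fin_cases i
      · exact h.1.1
      · exact h.1.2
      · exact h.2
      · simp [← he.2.2, ← he'.2.2, h.2]
    · rintro ⟨⟨u, w⟩, v⟩ h
      simp only [coe_product, Set.mem_prod, mem_coe, mem_offDiag, mem_compl, Perm.mem_support,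
        not_not] at h
      obtain ⟨⟨hu, hw, huw⟩, hv⟩ := h
      have k : ∀ z, x z = z → z ≠ v ∧ z ≠ x v := fun z hz =>
        ⟨by rintro rfl; exact hv hz, fun e => hv (by
          have : z = v := x.injective (hz.trans e)
          rw [← e, this])⟩
      refine ⟨em4 u w v (x v) huw (k u hu).1 (k u hu).2 (k w hw).1 (k w hw).2 (Ne.symm hv), ?_, rfl⟩
      simp [hu, hw]
  rw [e2, card_product, offDiag_card] at h
  have : (((x.supportᶜ).card * (x.supportᶜ).card - (x.supportᶜ).card : ℕ) : ℚ)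
      = (x.supportᶜ).card * ((x.supportᶜ).card - 1) := by
    rw [Nat.cast_sub (Nat.le_mul_self _)]; push_cast; ring
  push_cast [this] at h
  rw [← h]
  refine Ex_congr fun y => ?_
  simp [J, M]
  split_ifs <;> simp_all

/-- the neighbours of `w` in its cycle -/
def T (x : Perm Ω) (w : Ω) : Finset Ω := {w, x w, x⁻¹ w}

theorem T_sub {w : Ω} (hw : w ∈ x.support) : T x w ⊆ x.support := by
  intro z hz
  simp only [T, mem_insert, mem_singleton] at hz
  rcases hz with rfl | rfl | rfl
  · exact hw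
  · exact Perm.apply_mem_support.mpr hw
  · rw [← Perm.apply_mem_support]; simpa using hw

theorem nT {w v : Ω} (hv : v ∉ T x w) : w ≠ v ∧ x w ≠ v ∧ w ≠ x v ∧ x w ≠ x v := by
  simp only [T, mem_insert, mem_singleton, not_or] at hv
  refine ⟨Ne.symm hv.1, Ne.symm hv.2.1, fun e => hv.2.2 (by rw [e]; simp),
    fun e => hv.1 (x.injective e).symm⟩

theorem eMM4 (h4 : IsMultiplyPretransitive P Ω 4) (hn : 4 ≤ Fintype.card Ω) {r : ℕ}
    (hr : ∀ w ∈ x.support, (T x w).card = r) {a b c d : Ω}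
    (h1 : a ≠ b) (h2 : a ≠ c) (h3 : a ≠ d) (h5 : b ≠ c) (h6 : b ≠ d) (h7 : c ≠ d) :
    Ex P x (fun y => M y a b * M y c d)
      = x.support.card * (x.support.card - r) / ((Fintype.card Ω).descFactorial 4 : ℚ) := by
  have h := avgE (x := x) h4 hn (em4 a b c d h1 h2 h3 h5 h6 h7)
    (fun y e => y (e 0) = e 1 ∧ y (e 2) = e 3) (fun g => by
    simp only [cj_app, Function.Embedding.smul_apply, Perm.smul_def])
  have e2 : (univ.filter fun e : Fin 4 ↪ Ω => x (e 0) = e 1 ∧ x (e 2) = e 3).card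
      = (x.support.sigma fun w => x.support \ T x w).card := by
    refine card_nbij (fun e => ⟨e 0, e 2⟩) ?_ ?_ ?_
    · intro e he
      simp only [coe_filter, mem_univ, true_and, Set.mem_ofPred_eq] at he
      simp only [mem_coe, mem_sigma, mem_sdiff, Perm.mem_support, T, mem_insert, mem_singleton,
        he.1, he.2, Perm.eq_inv_iff_eq]
      simp
    · intro e he e' he' h
      simp only [coe_filter, mem_univ, true_and, Set.mem_ofPred_eq, Sigma.mk.injEq, heq_eq_eq]
        at he he' h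
      ext i; fin_cases i
      · exact h.1
      · simp [← he.1, ← he'.1, h.1]
      · exact h.2
      · simp [← he.2, ← he'.2, h.2]
    · rintro ⟨u, v⟩ h
      simp only [mem_coe, mem_sigma, mem_sdiff, Perm.mem_support] at h
      obtain ⟨hu, hv, hT⟩ := h
      obtain ⟨k1, k2, k3, k4⟩ := nT hT
      refine ⟨em4 u (x u) v (x v) (Ne.symm hu) k1 k3 k2 k4 (Ne.symm hv), ?_, rfl⟩
      simp
  have e3 : (((x.support.sigma fun w => x.support \ T x w).card : ℕ) : ℚ)
      = x.support.card * (x.support.card - r) := by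
    rw [card_sigma]; push_cast
    rw [sum_congr rfl (g := fun _ => (x.support.card : ℚ) - r)]
    · simp; ring
    · intro w hw
      rw [card_sdiff_of_subset (T_sub hw), Nat.cast_sub (card_le_card (T_sub hw)), hr w hw]
  rw [e2, e3] at h
  rw [← h]
  refine Ex_congr fun y => ?_
  simp [M]
  split_ifs <;> simp_all

theorem eMM3 (h4 : IsMultiplyPretransitive P Ω 4) (hn : 4 ≤ Fintype.card Ω)
    (hr : ∀ w ∈ x.support, x (x w) ≠ w) {a b c : Ω}
    (h1 : a ≠ b) (h2 : a ≠ c) (h3 : b ≠ c) : Ex P x (fun y => M y a b * M y b c)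
      = x.support.card / ((Fintype.card Ω).descFactorial 3 : ℚ) := by
  have hk : IsMultiplyPretransitive P Ω 3 :=
    isMultiplyPretransitive_of_le (by norm_num : 3 ≤ 4) (by rwa [Nat.card_eq_fintype_card])
  have h := avgE (x := x) hk (by omega) (em3 a b c h1 h2 h3)
    (fun y e => y (e 0) = e 1 ∧ y (e 1) = e 2) (fun g => by
    simp only [cj_app, Function.Embedding.smul_apply, Perm.smul_def])
  have e2 : (univ.filter fun e : Fin 3 ↪ Ω => x (e 0) = e 1 ∧ x (e 1) = e 2).card
      = x.support.card := by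
    refine card_nbij (fun e => e 0) ?_ ?_ ?_
    · intro e he
      simp only [coe_filter, mem_univ, true_and, Set.mem_ofPred_eq] at he
      simp only [mem_coe, Perm.mem_support, he.1]
      simp
    · intro e he e' he' h
      simp only [coe_filter, mem_univ, true_and, Set.mem_ofPred_eq] at he he' h
      ext i; fin_cases i
      · exact h
      · simp [← he.1, ← he'.1, h]
      · simp [← he.2, ← he'.2, ← he.1, ← he'.1, h]
    · intro u h
      have hu : x u ≠ u := by simpa using h
      refine ⟨em3 u (x u) (x (x u)) (Ne.symm hu) (Ne.symm (hr u h))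
        (fun e => hu (x.injective e).symm), ?_, rfl⟩
      simp
  rw [e2] at h
  rw [← h]
  refine Ex_congr fun y => ?_
  simp [M]
  split_ifs <;> simp_all

end H10.PF
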