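import Cfsg.Agent.H10.PF.A

/-! The statistics of a pair of permutations and their averages. -/
set_option autoImplicit false
set_option linter.unusedSectionVars false
set_option linter.unusedVariables false

namespace H10.PF
open Finset Equiv MulAction

variable {Ω : Type*} [Fintype Ω] [DecidableEq Ω] {P : Subgroup (Perm Ω)} {x y : Perm Ω}

def aN (x y : Perm Ω) : ℕ := (x.support.filter fun w => y w = w).card
def sA (x y : Perm Ω) : ℚ := ∑ w ∈ x.support, J y {w}
def sC (x y : Perm Ω) : ℚ := ∑ w ∈ x.support, J y {w, x w}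
def sD (x y : Perm Ω) : ℚ := ∑ u ∈ x.supportᶜ, ∑ v ∈ (x.supportᶜ).erase u, M y u v
def sE (x y : Perm Ω) : ℚ := ∑ w ∈ x.support, ∑ v ∈ x.support \ T x w, M y w v * M y (x w) (x v)
def sN (x y : Perm Ω) : ℚ := ∑ w ∈ x.support, ∑ v ∈ x.support \ T x w, J y {v, x v} * M y w (x w)
def sO (x y : Perm Ω) : ℚ :=
  ∑ w ∈ x.support, (M y w (x w) * M y (x w) (x (x w)) + M y (x w) w * M y w (x⁻¹ w))

theorem sA_eq : sA x y = aN x y := by simp [sA, aN, J]

theorem sC_eq : sC x y = (x.support.filter fun w => y w = w ∧ y (x w) = x w).card := by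
  simp [sC, J]

theorem sD_eq : sD x y = ((x.supportᶜ).filter fun u => y u ≠ u ∧ x (y u) = y u).card := by
  simp only [sD, M, sum_ite_eq, mem_erase, mem_compl, Perm.mem_support, not_not]
  simp

theorem sE_nonneg : 0 ≤ sE x y :=
  sum_nonneg fun _ _ => sum_nonneg fun _ _ => mul_nonneg (M_nonneg ..) (M_nonneg ..)
theorem sN_nonneg : 0 ≤ sN x y :=
  sum_nonneg fun _ _ => sum_nonneg fun _ _ => mul_nonneg (J_nonneg ..) (M_nonneg ..)
theorem sO_nonneg : 0 ≤ sO x y :=
  sum_nonneg fun _ _ => add_nonneg (mul_nonneg (M_nonneg ..) (M_nonneg ..))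
    (mul_nonneg (M_nonneg ..) (M_nonneg ..))
theorem sC_nonneg : 0 ≤ sC x y := by rw [sC_eq]; positivity
theorem sD_nonneg : 0 ≤ sD x y := by rw [sD_eq]; positivity
theorem aN_le : aN x y ≤ x.support.card := card_filter_le _ _

theorem fix_split (hy : y.support.card = x.support.card) :
    ((x.supportᶜ).filter fun u => y u = u).card + aN x y = (x.supportᶜ).card := by
  have : (x.supportᶜ).card = (y.supportᶜ).card := by rw [card_compl, card_compl, hy]
  rw [this, aN, ← card_union_of_disjoint (disjoint_filter_filter disjoint_compl_left)]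
  congr 1
  ext u; by_cases h : x u = u <;> simp [h]

theorem nc (hy : y.support.card = x.support.card)
    (hz : x.support.card ≤ ((y * x)⁻¹ * (x * y)).support.card) : sC x y + sD x y ≤ sA x y := by
  have h1 := fix_split hy
  have h2 : (((y * x)⁻¹ * (x * y)).supportᶜ).card ≤ (x.supportᶜ).card := by
    rw [card_compl, card_compl]; omega
  have h3 : ((x.supportᶜ).filter fun u => y u = u) ∪
      ((x.support.filter fun w => y w = w ∧ y (x w) = x w) ∪
      ((x.supportᶜ).filter fun u => y u ≠ u ∧ x (y u) = y u)) ⊆ ((y * x)⁻¹ * (x * y)).supportᶜ := by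
    intro u hu
    simp only [mem_union, mem_filter, mem_compl, Perm.mem_support, not_not] at hu
    simp only [mem_compl, Perm.mem_support, not_not, Perm.mul_apply, Perm.inv_eq_iff_eq]
    rcases hu with h | h | h
    · simp [h.1, h.2]
    · simp [h.2.1, h.2.2]
    · simp [h.1, h.2.2]
  have h4 := card_le_card h3
  rw [card_union_of_disjoint, card_union_of_disjoint] at h4
  · rw [sA_eq, sC_eq, sD_eq, ← Nat.cast_add, Nat.cast_le]; omega
  · exact disjoint_filter_filter disjoint_compl_right
  · rw [disjoint_left]; intro u hu hv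
    simp only [mem_union, mem_filter, mem_compl, Perm.mem_support, not_not] at hu hv
    tauto

theorem capp (h : x * y = y * x) (w : Ω) : y (x w) = x (y w) := by
  rw [← Perm.mul_apply, ← h, Perm.mul_apply]

theorem cm_C (h : x * y = y * x) : sC x y = sA x y := by
  rw [sA_eq, sC_eq, aN]; congr 2
  exact filter_congr fun w _ => ⟨fun k => k.1, fun k => ⟨k, by rw [capp h, k]⟩⟩

theorem cm_D (hy : y.support.card = x.support.card) (h : x * y = y * x) : sD x y = sA x y := by
  have h1 := fix_split hy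
  have h2 := card_filter_add_card_filter_not (s := x.supportᶜ) (fun u => y u = u)
  have h3 : ((x.supportᶜ).filter fun u => y u ≠ u ∧ x (y u) = y u)
      = (x.supportᶜ).filter fun u => ¬ y u = u := filter_congr fun w hw =>
    ⟨fun k => k.1, fun k => ⟨k, by
      have : x w = w := by simpa using hw
      rw [← capp h, this]⟩⟩
  rw [sA_eq, sD_eq, h3]; norm_cast; omega

theorem inner_E (h : x * y = y * x) {w : Ω} (hw : w ∈ x.support) (hT : y w ∉ T x w) :
    1 ≤ ∑ v ∈ x.support \ T x w, M y w v * M y (x w) (x v) := by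
  have hm : y w ∈ x.support \ T x w := by
    refine mem_sdiff.mpr ⟨?_, hT⟩
    rw [Perm.mem_support, ← capp h] at *
    exact fun e => hw (y.injective e)
  have := single_le_sum (f := fun v => M y w v * M y (x w) (x v))
    (fun v _ => mul_nonneg (M_nonneg ..) (M_nonneg ..)) hm
  simpa [M, capp h] using this

theorem inner_nn (w : Ω) : 0 ≤ ∑ v ∈ x.support \ T x w, M y w v * M y (x w) (x v) :=
  sum_nonneg fun _ _ => mul_nonneg (M_nonneg ..) (M_nonneg ..)

theorem cm_O (h : x * y = y * x) : x.support.card - sA x y ≤ sE x y + sO x y := by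
  rw [card_eq_sum_ones, sA, sE, sO]; push_cast
  rw [← sum_sub_distrib, ← sum_add_distrib]
  refine sum_le_sum fun w hw => ?_
  have k0 := inner_nn (x := x) (y := y) w
  have k1 := mul_nonneg (M_nonneg y w (x w)) (M_nonneg y (x w) (x (x w)))
  have k2 := mul_nonneg (M_nonneg y (x w) w) (M_nonneg y w (x⁻¹ w))
  have k3 := J_nonneg y {w}
  by_cases hT : y w ∈ T x w
  · simp only [T, mem_insert, mem_singleton] at hT
    rcases hT with e | e | e
    · have : J y {w} = 1 := by simp [J, e]
      linarith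
    · have : M y w (x w) * M y (x w) (x (x w)) = 1 := by simp [M, capp h, e]
      linarith
    · have : M y (x w) w * M y w (x⁻¹ w) = 1 := by simp [M, capp h, e]
      linarith
  · have := inner_E h hw hT
    linarith

theorem inv2 (h2 : x * x = 1) (w : Ω) : x (x w) = w := by rw [← Perm.mul_apply, h2]; rfl
theorem inv2' (h2 : x * x = 1) : x⁻¹ = x := inv_eq_of_mul_eq_one_right h2

theorem cm_N (h2 : x * x = 1) (h : x * y = y * x) : ∃ e : ℚ, 0 ≤ e ∧ e ≤ x.support.card - sA x y ∧
    x.support.card - sA x y - e ≤ sE x y ∧ e * sA x y ≤ sN x y := by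
  refine ⟨∑ w ∈ x.support, M y w (x w), sum_nonneg fun _ _ => M_nonneg .., ?_, ?_, ?_⟩
  · rw [card_eq_sum_ones, sA]; push_cast
    rw [← sum_sub_distrib]
    refine sum_le_sum fun w hw => ?_
    have := Perm.mem_support.mp hw
    by_cases e : y w = w
    · simp [M, J, e, this.symm]
    · have : J y {w} = 0 := by simp [J, e]
      rw [this, M]; split_ifs <;> norm_num
  · rw [card_eq_sum_ones, sA, sE]; push_cast
    rw [← sum_sub_distrib, ← sum_sub_distrib]
    refine sum_le_sum fun w hw => ?_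
    have k0 := inner_nn (x := x) (y := y) w
    have k1 := M_nonneg y w (x w)
    have k3 := J_nonneg y {w}
    by_cases hT : y w ∈ T x w
    · simp only [T, mem_insert, mem_singleton, inv2' h2, or_self] at hT
      rcases hT with e | e
      · have : J y {w} = 1 := by simp [J, e]
        linarith
      · have : M y w (x w) = 1 := by simp [M, e]
        linarith
    · have := inner_E h hw hT
      linarith
  · rw [sum_mul, sN]
    refine sum_le_sum fun w hw => ?_
    have hw' := Perm.mem_support.mp hw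
    rw [← sum_mul, mul_comm]
    by_cases e : y w = x w
    · refine mul_le_mul_of_nonneg_right (le_of_eq ?_) (M_nonneg ..)
      rw [← cm_C h, sC, ← sum_sdiff (T_sub hw), sum_eq_zero (s := T x w), add_zero]
      intro v hv
      simp only [T, mem_insert, mem_singleton, inv2' h2, or_self] at hv
      rcases hv with rfl | rfl
      · simp [J, e, hw']
      · simp [J, inv2 h2, e, hw']
    · simp [M, e]

theorem cm_even (h2 : x * x = 1) (h : x * y = y * x) : Even (aN x y) := by
  rw [← ZMod.natCast_eq_zero_iff_even, aN, card_eq_sum_ones]; push_cast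
  refine sum_involution (fun w _ => x w) (fun _ _ => by decide) ?_ ?_ (fun w _ => inv2 h2 w)
  · intro w hw _; exact Perm.mem_support.mp (mem_filter.mp hw).1
  · intro w hw
    obtain ⟨h1, h3⟩ := mem_filter.mp hw
    exact mem_filter.mpr ⟨Perm.apply_mem_support.mpr h1, by rw [capp h, h3]⟩

/-! expectations -/

theorem sum_two {S U : Finset Ω} (hU : U ⊆ S) {f : Ω → ℚ} {α β : ℚ} (h1 : ∀ v ∈ U, f v = α)
    (h2 : ∀ v ∈ S, v ∉ U → f v = β) : ∑ v ∈ S, f v = U.card * α + (S.card - U.card) * β := by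
  rw [← sum_sdiff hU, sum_congr rfl h1,
    sum_congr rfl (fun v hv => h2 v (mem_sdiff.mp hv).1 (mem_sdiff.mp hv).2)]
  simp only [sum_const, nsmul_eq_mul, card_sdiff_of_subset hU, Nat.cast_sub (card_le_card hU)]
  ring

theorem sum_cst {S : Finset Ω} {f : Ω → ℚ} {α : ℚ} (h1 : ∀ v ∈ S, f v = α) :
    ∑ v ∈ S, f v = S.card * α := by
  rw [sum_congr rfl h1]; simp

section
variable (h4 : IsMultiplyPretransitive P Ω 4) (hn : 4 ≤ Fintype.card Ω)
include h4 hn

theorem E_ch (j : ℕ) (hj : j ≤ 4) :
    Ex P x (fun y => ((aN x y).choose j : ℚ)) = x.support.card.choose j * pr x j := by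
  have e : ∀ y : Perm Ω, ((aN x y).choose j : ℚ) = ∑ U ∈ powersetCard j x.support, J y U := by
    intro y
    rw [aN, ← card_powersetCard]
    simp only [J, sum_boole]
    congr 2
    ext U
    simp only [mem_powersetCard, mem_filter, subset_iff]
    exact ⟨fun h => ⟨⟨fun _ k => (h.1 k).1, h.2⟩, fun _ k => (h.1 k).2⟩,
      fun h => ⟨fun _ k => ⟨h.1.1 k, h.2 _ k⟩, h.1.2⟩⟩
  rw [Ex_congr e, Ex_sum, sum_congr rfl (g := fun _ => pr x j)]
  · simp
  · intro U hU
    have := (mem_powersetCard.mp hU).2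
    rw [eF h4 hn U (by omega), this]

theorem E_J {U : Finset Ω} {k : ℕ} (hU : U.card = k) (hk : k ≤ 4) :
    Ex P x (fun y => J y U) = pr x k := by rw [eF h4 hn U (by omega), hU]

theorem E_AC : Ex P x (fun y => sA x y * sC x y)
    = x.support.card * (2 * pr x 2 + (x.support.card - 2) * pr x 3) := by
  simp only [sA, sC, mul_sum, sum_mul, J_mul, Ex_sum]
  refine sum_cst fun w hw => ?_
  have hw' := Perm.mem_support.mp hw
  have c2 : ({w, x w} : Finset Ω).card = 2 := card_pair hw'.symm
  have hs : ({w, x w} : Finset Ω) ⊆ x.support := fun z hz =>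
    T_sub hw (by simp only [T, mem_insert, mem_singleton] at *; tauto)
  rw [sum_two (α := pr x 2) (β := pr x 3) hs, c2]
  · norm_num
  · intro v hv
    refine E_J h4 hn ?_ (by norm_num)
    rw [union_eq_right.mpr (by simpa using hv), c2]
  · intro v _ hv
    refine E_J h4 hn ?_ (by norm_num)
    rw [singleton_union, card_insert_of_notMem hv, c2]

theorem c4 {w v : Ω} (hw : w ∈ x.support) (hv : v ∈ x.support) (hT : v ∉ T x w) :
    ({v, x v} ∪ {w, x w} : Finset Ω).card = 4 := by
  obtain ⟨k1, k2, k3, k4⟩ := nT hT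
  rw [card_union_of_disjoint, card_pair (Perm.mem_support.mp hw).symm,
    card_pair (Perm.mem_support.mp hv).symm]
  simp [k1, k2, k3, k4, k1.symm, k2.symm, k3.symm, k4.symm]

theorem E_CC2 (h2 : x * x = 1) : Ex P x (fun y => sC x y * sC x y)
    = x.support.card * (2 * pr x 2 + (x.support.card - 2) * pr x 4) := by
  simp only [sC, mul_sum, sum_mul, J_mul, Ex_sum]
  refine sum_cst fun w hw => ?_
  have hw' := Perm.mem_support.mp hw
  have c2 : ({w, x w} : Finset Ω).card = 2 := card_pair hw'.symm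
  have eT : T x w = {w, x w} := by simp [T, inv2' h2]
  rw [sum_two (U := T x w) (α := pr x 2) (β := pr x 4) (T_sub hw), eT, c2]
  · norm_num
  · intro v hv
    refine E_J h4 hn ?_ (by norm_num)
    rw [eT, mem_insert, mem_singleton] at hv
    rcases hv with rfl | rfl
    · simpa using c2
    · rw [inv2 h2, pair_comm, union_idempotent, c2]
  · intro v hv hT
    exact E_J h4 hn (c4 h4 hn hw hv hT) le_rfl

theorem T3 (h3 : ∀ w ∈ x.support, x (x w) ≠ w) {w : Ω} (hw : w ∈ x.support) :
    w ≠ x w ∧ w ≠ x⁻¹ w ∧ x w ≠ x⁻¹ w := by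
  have hw' := Perm.mem_support.mp hw
  exact ⟨hw'.symm, fun e => hw' (Perm.eq_inv_iff_eq.mp e), fun e => h3 w hw (Perm.eq_inv_iff_eq.mp e)⟩

theorem T3c (h3 : ∀ w ∈ x.support, x (x w) ≠ w) (w : Ω) (hw : w ∈ x.support) : (T x w).card = 3 := by
  obtain ⟨k1, k2, k3⟩ := T3 h4 hn h3 hw
  exact card_eq_three.mpr ⟨_, _, _, k1, k2, k3, rfl⟩

theorem E_CC3 (h3 : ∀ w ∈ x.support, x (x w) ≠ w) : Ex P x (fun y => sC x y * sC x y)
    = x.support.card * (pr x 2 + 2 * pr x 3 + (x.support.card - 3) * pr x 4) := by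
  simp only [sC, mul_sum, sum_mul, J_mul, Ex_sum]
  refine sum_cst fun w hw => ?_
  obtain ⟨k1, k2, k3⟩ := T3 h4 hn h3 hw
  rw [← sum_sdiff (T_sub hw), sum_cst (α := pr x 4) (fun v hv =>
    E_J h4 hn (c4 h4 hn hw (mem_sdiff.mp hv).1 (mem_sdiff.mp hv).2) le_rfl),
    card_sdiff_of_subset (T_sub hw), Nat.cast_sub (card_le_card (T_sub hw)), T3c h4 hn h3 w hw, T,
    sum_insert (by simp only [mem_insert, mem_singleton, not_or]; exact ⟨k1, k2⟩), sum_pair k3, E_J h4 hn (k := 2), E_J h4 hn (k := 3),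
    E_J h4 hn (k := 3)]
  · push_cast; ring
  · refine card_eq_three.mpr ⟨w, x w, x⁻¹ w, k1, k2, k3, ?_⟩
    ext z; simp; tauto
  · norm_num
  · refine card_eq_three.mpr ⟨w, x w, x (x w), k1, (h3 w hw).symm, fun e => k1 (x.injective e), ?_⟩
    ext z; simp; tauto
  · norm_num
  · simpa using card_pair k1
  · norm_num

theorem sne {w u : Ω} (hw : w ∈ x.support) (hu : u ∈ x.supportᶜ) : w ≠ u := by
  rintro rfl; exact mem_compl.mp hu hw

theorem er_card {S : Finset Ω} {u : Ω} (hu : u ∈ S) : ((S.erase u).card : ℚ) = S.card - 1 := by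
  rw [card_erase_of_mem hu, Nat.cast_sub (card_pos.mpr ⟨u, hu⟩)]; simp

theorem E_CD : Ex P x (fun y => sC x y * sD x y)
    = (x.supportᶜ).card * (((x.supportᶜ).card - 1) * (x.support.card *
      ((x.supportᶜ).card * ((x.supportᶜ).card - 1) * x.support.card
        / ((Fintype.card Ω).descFactorial 4 : ℚ)))) := by
  simp only [sC, sD, mul_sum, sum_mul, Ex_sum]
  refine sum_cst fun u hu => ?_
  rw [← er_card h4 hn hu]
  refine sum_cst fun v hv => sum_cst fun w hw => ?_
  have hv' := mem_of_mem_erase hv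
  have hx := Perm.apply_mem_support.mpr hw
  rw [er_card h4 hn hu]
  exact eFFM h4 hn (Perm.mem_support.mp hw).symm (sne h4 hn hw hu) (sne h4 hn hw hv')
    (sne h4 hn hx hu) (sne h4 hn hx hv') (ne_of_mem_erase hv).symm

theorem E_AD : Ex P x (fun y => sA x y * sD x y)
    = (x.supportᶜ).card * (((x.supportᶜ).card - 1) * (x.support.card *
      ((x.supportᶜ).card * x.support.card / ((Fintype.card Ω).descFactorial 3 : ℚ)))) := by
  simp only [sA, sD, mul_sum, sum_mul, Ex_sum]
  refine sum_cst fun u hu => ?_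
  rw [← er_card h4 hn hu]
  refine sum_cst fun v hv => sum_cst fun w hw => ?_
  exact eFM h4 hn (sne h4 hn hw hu) (sne h4 hn hw (mem_of_mem_erase hv)) (ne_of_mem_erase hv).symm

theorem sd_card {r : ℕ} (hr : ∀ w ∈ x.support, (T x w).card = r) {w : Ω} (hw : w ∈ x.support) :
    ((x.support \ T x w).card : ℚ) = x.support.card - r := by
  rw [card_sdiff_of_subset (T_sub hw), Nat.cast_sub (card_le_card (T_sub hw)), hr w hw]

theorem E_E {r : ℕ} (hr : ∀ w ∈ x.support, (T x w).card = r) : Ex P x (fun y => sE x y)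
    = x.support.card * ((x.support.card - r) *
      (x.support.card * (x.support.card - r) / ((Fintype.card Ω).descFactorial 4 : ℚ))) := by
  simp only [sE, Ex_sum]
  refine sum_cst fun w hw => ?_
  refine (sum_cst fun v hv => ?_).trans (by rw [sd_card h4 hn hr hw])
  obtain ⟨k1, k2, k3, k4⟩ := nT (mem_sdiff.mp hv).2
  exact eMM4 h4 hn hr k1 (Perm.mem_support.mp hw).symm k3 k2.symm
    (Perm.mem_support.mp (mem_sdiff.mp hv).1).symm k4

theorem E_N {r : ℕ} (hr : ∀ w ∈ x.support, (T x w).card = r) : Ex P x (fun y => sN x y)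
    = x.support.card * ((x.support.card - r) *
      ((x.supportᶜ).card * ((x.supportᶜ).card - 1) * x.support.card
        / ((Fintype.card Ω).descFactorial 4 : ℚ))) := by
  simp only [sN, Ex_sum]
  refine sum_cst fun w hw => ?_
  refine (sum_cst fun v hv => ?_).trans (by rw [sd_card h4 hn hr hw])
  obtain ⟨k1, k2, k3, k4⟩ := nT (mem_sdiff.mp hv).2
  exact eFFM h4 hn (Perm.mem_support.mp (mem_sdiff.mp hv).1).symm k1.symm k2.symm k3.symm k4.symm
    (Perm.mem_support.mp hw).symm

theorem E_O (h3 : ∀ w ∈ x.support, x (x w) ≠ w) : Ex P x (fun y => sO x y)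
    = x.support.card * (2 * (x.support.card / ((Fintype.card Ω).descFactorial 3 : ℚ))) := by
  simp only [sO, Ex_sum]
  refine sum_cst fun w hw => ?_
  obtain ⟨k1, k2, k3⟩ := T3 h4 hn h3 hw
  rw [Ex_add, eMM3 h4 hn h3 k1 (h3 w hw).symm (fun e => k1 (x.injective e)),
    eMM3 h4 hn h3 k1.symm k3 k2]
  ring

end

end H10.PF
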