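import Cfsg.Agent.H10.PF.B

/-! Closed forms of the averages. -/
set_option autoImplicit false
set_option linter.unusedSectionVars false
set_option linter.unusedVariables false

namespace H10.PF
open Finset Equiv MulAction

variable {Ω : Type*} [Fintype Ω] [DecidableEq Ω] {P : Subgroup (Perm Ω)} {x y : Perm Ω}

theorem ch2 (a : ℕ) : (a.choose 2 : ℚ) = a * (a - 1) / 2 := Nat.cast_choose_two ℚ a
theorem ch3 (a : ℕ) : (a.choose 3 : ℚ) = a * (a - 1) * (a - 2) / 6 := by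
  induction a with
  | zero => simp
  | succ a ih => rw [Nat.choose_succ_succ' a 2]; push_cast; rw [ih, ch2]; ring
theorem ch4 (a : ℕ) : (a.choose 4 : ℚ) = a * (a - 1) * (a - 2) * (a - 3) / 24 := by
  induction a with
  | zero => simp
  | succ a ih => rw [Nat.choose_succ_succ' a 3]; push_cast; rw [ih, ch3]; ring
theorem df1 (a : ℕ) : (a.descFactorial 1 : ℚ) = a := by simp
theorem df2 (a : ℕ) : (a.descFactorial 2 : ℚ) = a * (a - 1) := by
  rw [Nat.descFactorial_eq_factorial_mul_choose]; push_cast; rw [ch2]; norm_num [Nat.factorial]; ring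
theorem df3 (a : ℕ) : (a.descFactorial 3 : ℚ) = a * (a - 1) * (a - 2) := by
  rw [Nat.descFactorial_eq_factorial_mul_choose]; push_cast; rw [ch3]; norm_num [Nat.factorial]; ring
theorem df4 (a : ℕ) : (a.descFactorial 4 : ℚ) = a * (a - 1) * (a - 2) * (a - 3) := by
  rw [Nat.descFactorial_eq_factorial_mul_choose]; push_cast; rw [ch4]; norm_num [Nat.factorial]; ring

def P0 (m f : ℚ) : ℚ := (m + f) * (m + f - 1) * (m + f - 2) * (m + f - 3)
def P1 (m f : ℚ) : ℚ := f * (m + f - 1) * (m + f - 2) * (m + f - 3)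
def P2 (m f : ℚ) : ℚ := f * (f - 1) * (m + f - 2) * (m + f - 3)
def P3 (m f : ℚ) : ℚ := f * (f - 1) * (f - 2) * (m + f - 3)
def P4 (m f : ℚ) : ℚ := f * (f - 1) * (f - 2) * (f - 3)
def xAC (m f : ℚ) : ℚ := m * (2 * P2 m f + (m - 2) * P3 m f)
def xC2 (m f : ℚ) : ℚ := m * (2 * P2 m f + (m - 2) * P4 m f)
def xC3 (m f : ℚ) : ℚ := m * (P2 m f + 2 * P3 m f + (m - 3) * P4 m f)
def xCD (m f : ℚ) : ℚ := f * (f - 1) * m * f * (f - 1) * m
def xAD (m f : ℚ) : ℚ := f * (f - 1) * m * f * m * (m + f - 3)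
def xA1 (m f : ℚ) : ℚ := m * P1 m f
def xA2 (m f : ℚ) : ℚ := xA1 m f + m * (m - 1) * P2 m f
def xA3 (m f : ℚ) : ℚ := xA1 m f + 3 * m * (m - 1) * P2 m f + m * (m - 1) * (m - 2) * P3 m f
def xA4 (m f : ℚ) : ℚ := xA1 m f + 7 * m * (m - 1) * P2 m f + 6 * m * (m - 1) * (m - 2) * P3 m f
  + m * (m - 1) * (m - 2) * (m - 3) * P4 m f

/-- the test function -/
def tf (α β l k o q0 q1 q2 q3 q4 : ℚ) (x y : Perm Ω) : ℚ :=
  α * (sA x y * sC x y - sC x y * sC x y - sC x y * sD x y)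
  + β * (sA x y ^ 2 - 2 * (sA x y * sC x y) + sC x y * sC x y - sA x y * sD x y + sC x y * sD x y)
  + l * sE x y + k * sN x y + o * sO x y
  + (q0 + q1 * sA x y + q2 * sA x y ^ 2 + q3 * sA x y ^ 3 + q4 * sA x y ^ 4)

theorem tf_nc {α β l k o q0 q1 q2 q3 q4 : ℚ} (h : sC x y + sD x y ≤ sA x y) (h1 : 0 ≤ α) (h2 : 0 ≤ β)
    (h3 : 0 ≤ l) (h4 : 0 ≤ k) (h5 : 0 ≤ o)
    (hq : 0 ≤ q0 + q1 * sA x y + q2 * sA x y ^ 2 + q3 * sA x y ^ 3 + q4 * sA x y ^ 4) :
    0 ≤ tf α β l k o q0 q1 q2 q3 q4 x y := by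
  have c := sC_nonneg (x := x) (y := y)
  have d := sD_nonneg (x := x) (y := y)
  have e1 : 0 ≤ sA x y * sC x y - sC x y * sC x y - sC x y * sD x y := by nlinarith
  have e2 : 0 ≤ sA x y ^ 2 - 2 * (sA x y * sC x y) + sC x y * sC x y - sA x y * sD x y
      + sC x y * sD x y := by nlinarith
  have := sE_nonneg (x := x) (y := y)
  have := sN_nonneg (x := x) (y := y)
  have := sO_nonneg (x := x) (y := y)
  unfold tf; positivity

theorem tf_cm {α β l k o q0 q1 q2 q3 q4 : ℚ} (hy : y.support.card = x.support.card)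
    (h : x * y = y * x) : tf α β l k o q0 q1 q2 q3 q4 x y = - α * sA x y ^ 2
      + l * sE x y + k * sN x y + o * sO x y
      + (q0 + q1 * sA x y + q2 * sA x y ^ 2 + q3 * sA x y ^ 3 + q4 * sA x y ^ 4) := by
  rw [tf, cm_C h, cm_D hy h]; ring

section
variable (h4 : IsMultiplyPretransitive P Ω 4) (hn : 4 ≤ Fintype.card Ω)
include h4 hn

theorem E_A1 : Ex P x (fun y => sA x y) = x.support.card * pr x 1 := by
  have := E_ch (x := x) h4 hn 1 (by norm_num)
  simpa only [Nat.choose_one_right, ← sA_eq] using this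

theorem E_A2 : Ex P x (fun y => sA x y ^ 2)
    = x.support.card * pr x 1 + x.support.card * (x.support.card - 1) * pr x 2 := by
  rw [Ex_congr (G := fun y => sA x y + 2 * ((aN x y).choose 2 : ℚ))
    (fun y => by rw [ch2, sA_eq]; ring), Ex_add, Ex_mul, E_A1 h4 hn, E_ch h4 hn 2 (by norm_num), ch2]
  ring

theorem E_A3 : Ex P x (fun y => sA x y ^ 3)
    = x.support.card * pr x 1 + 3 * x.support.card * (x.support.card - 1) * pr x 2
      + x.support.card * (x.support.card - 1) * (x.support.card - 2) * pr x 3 := by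
  rw [Ex_congr (G := fun y => sA x y + 6 * ((aN x y).choose 2 : ℚ) + 6 * ((aN x y).choose 3 : ℚ))
    (fun y => by rw [ch2, ch3, sA_eq]; ring), Ex_add, Ex_add, Ex_mul, Ex_mul, E_A1 h4 hn,
    E_ch h4 hn 2 (by norm_num), E_ch h4 hn 3 (by norm_num), ch2, ch3]
  ring

theorem E_A4 : Ex P x (fun y => sA x y ^ 4)
    = x.support.card * pr x 1 + 7 * x.support.card * (x.support.card - 1) * pr x 2
      + 6 * x.support.card * (x.support.card - 1) * (x.support.card - 2) * pr x 3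
      + x.support.card * (x.support.card - 1) * (x.support.card - 2) * (x.support.card - 3)
        * pr x 4 := by
  rw [Ex_congr (G := fun y => sA x y + 14 * ((aN x y).choose 2 : ℚ) + 36 * ((aN x y).choose 3 : ℚ)
      + 24 * ((aN x y).choose 4 : ℚ))
    (fun y => by rw [ch2, ch3, ch4, sA_eq]; ring), Ex_add, Ex_add, Ex_add, Ex_mul, Ex_mul, Ex_mul,
    E_A1 h4 hn, E_ch h4 hn 2 (by norm_num), E_ch h4 hn 3 (by norm_num), E_ch h4 hn 4 le_rfl,
    ch2, ch3, ch4]
  ring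

theorem ncard : (Fintype.card Ω : ℚ) = x.support.card + (x.supportᶜ).card := by
  rw [← card_add_card_compl x.support]; push_cast; rfl

theorem master {α β l k o q0 q1 q2 q3 q4 m f r C O : ℚ} {r' : ℕ} (hm : m = x.support.card)
    (hf : f = (x.supportᶜ).card) (hr : ∀ w ∈ x.support, (T x w).card = r') (hr' : r = r')
    (hC : Ex P x (fun y => sC x y * sC x y) * P0 m f = C)
    (hO : o * Ex P x (fun y => sO x y) * P0 m f = O)
    (h : ∀ g ∈ P, 0 ≤ tf α β l k o q0 q1 q2 q3 q4 x (g * x * g⁻¹)) :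
    0 ≤ α * (xAC m f - C - xCD m f) + β * (xA2 m f - 2 * xAC m f + C - xAD m f + xCD m f)
      + l * (m * (m - r) * m * (m - r)) + k * (m * (m - r) * f * (f - 1) * m) + O
      + (q0 * P0 m f + q1 * xA1 m f + q2 * xA2 m f + q3 * xA3 m f + q4 * xA4 m f) := by
  have e := Ex_nonneg (F := fun y => tf α β l k o q0 q1 q2 q3 q4 x y) h
  have hN := ncard (x := x) h4 hn
  have n4 : (4 : ℚ) ≤ m + f := by rw [hm, hf, ← hN]; exact_mod_cast hn
  simp only [tf, Ex_add, Ex_sub, Ex_mul, Ex_const, E_A1 h4 hn, E_A2 h4 hn, E_A3 h4 hn, E_A4 h4 hn,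
    E_AC h4 hn, E_CD h4 hn, E_AD h4 hn, E_E h4 hn hr, E_N h4 hn hr, pr, df1, df2, df3, df4, hN,
    ← hm, ← hf, ← hr'] at e
  have k0 : 0 < m + f := by linarith
  have k1 : 0 < m + f - 1 := by linarith
  have k2 : 0 < m + f - 2 := by linarith
  have k3 : 0 < m + f - 3 := by linarith
  have := mul_nonneg e (show 0 ≤ P0 m f by unfold P0; positivity)
  refine this.trans (le_of_eq ?_)
  rw [← hC, ← hO]
  generalize (Ex P x fun y => sC x y * sC x y) = c
  generalize (Ex P x fun y => sO x y) = d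
  simp only [xAC, xCD, xA1, xA2, xA3, xA4, xAD, P0, P1, P2, P3, P4]
  field_simp

theorem master2 {α β l k q0 q1 q2 q3 q4 m f : ℚ} (hm : m = x.support.card)
    (hf : f = (x.supportᶜ).card) (h2 : x * x = 1)
    (h : ∀ g ∈ P, 0 ≤ tf α β l k 0 q0 q1 q2 q3 q4 x (g * x * g⁻¹)) :
    0 ≤ α * (xAC m f - xC2 m f - xCD m f)
      + β * (xA2 m f - 2 * xAC m f + xC2 m f - xAD m f + xCD m f)
      + l * (m * (m - 2) * m * (m - 2)) + k * (m * (m - 2) * f * (f - 1) * m) + 0
      + (q0 * P0 m f + q1 * xA1 m f + q2 * xA2 m f + q3 * xA3 m f + q4 * xA4 m f) := by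
  refine master h4 hn (r' := 2) hm hf (fun w hw => ?_) (by norm_num) ?_ (by simp) h
  · have : T x w = {w, x w} := by simp [T, inv2' h2]
    rw [this, card_pair (Perm.mem_support.mp hw).symm]
  · have hN := ncard (x := x) h4 hn
    have n4 : (4 : ℚ) ≤ m + f := by rw [hm, hf, ← hN]; exact_mod_cast hn
    have k0 : 0 < m + f := by linarith
    have k1 : 0 < m + f - 1 := by linarith
    have k2 : 0 < m + f - 2 := by linarith
    have k3 : 0 < m + f - 3 := by linarith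
    simp only [E_CC2 h4 hn h2, pr, df2, df4, hN, ← hm, ← hf, xC2, P0, P2, P4]
    field_simp

theorem master3 {α β l o q0 q1 q2 q3 q4 m f : ℚ} (hm : m = x.support.card)
    (hf : f = (x.supportᶜ).card) (h3 : ∀ w ∈ x.support, x (x w) ≠ w)
    (h : ∀ g ∈ P, 0 ≤ tf α β l 0 o q0 q1 q2 q3 q4 x (g * x * g⁻¹)) :
    0 ≤ α * (xAC m f - xC3 m f - xCD m f)
      + β * (xA2 m f - 2 * xAC m f + xC3 m f - xAD m f + xCD m f)
      + l * (m * (m - 3) * m * (m - 3)) + 0 * (m * (m - 3) * f * (f - 1) * m)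
      + o * (2 * m * m * (m + f - 3))
      + (q0 * P0 m f + q1 * xA1 m f + q2 * xA2 m f + q3 * xA3 m f + q4 * xA4 m f) := by
  have hN := ncard (x := x) h4 hn
  have n4 : (4 : ℚ) ≤ m + f := by rw [hm, hf, ← hN]; exact_mod_cast hn
  have k0 : 0 < m + f := by linarith
  have k1 : 0 < m + f - 1 := by linarith
  have k2 : 0 < m + f - 2 := by linarith
  have k3 : 0 < m + f - 3 := by linarith
  refine master h4 hn (r' := 3) hm hf (T3c h4 hn h3) (by norm_num) ?_ ?_ h
  · simp only [E_CC3 h4 hn h3, pr, df2, df3, df4, hN, ← hm, ← hf, xC3, P0, P2, P3, P4]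
    field_simp
  · simp only [E_O h4 hn h3, df3, hN, ← hm, ← hf, P0]
    field_simp

end

end H10.PF
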