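import Cfsg.Agent.H10.PF.C
import Cfsg.Agent.H17.Bochert
import Cfsg.Agent.H17.Jordan

/-! The four-transitive case. -/
set_option autoImplicit false
set_option linter.unusedSectionVars false
set_option linter.unusedVariables false

namespace H10.PF
open Finset Equiv MulAction

variable {Ω : Type*} [Fintype Ω] [DecidableEq Ω] {P : Subgroup (Perm Ω)} {x y : Perm Ω}

theorem dich (hx : x ∈ P) (hmin : ∀ z ∈ P, z ≠ 1 → x.support.card ≤ z.support.card) {g : Perm Ω}
    (hg : g ∈ P) : x * (g * x * g⁻¹) = (g * x * g⁻¹) * x ∨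
      sC x (g * x * g⁻¹) + sD x (g * x * g⁻¹) ≤ sA x (g * x * g⁻¹) := by
  have hy : g * x * g⁻¹ ∈ P := P.mul_mem (P.mul_mem hg hx) (P.inv_mem hg)
  have hc : (g * x * g⁻¹).support.card = x.support.card := Perm.card_support_conj
  generalize g * x * g⁻¹ = y at *
  by_cases h : x * y = y * x
  · exact Or.inl h
  · exact Or.inr (nc hc (hmin _ (P.mul_mem (P.inv_mem (P.mul_mem hy hx)) (P.mul_mem hx hy))
      fun e => h (inv_mul_eq_one.mp e).symm))

theorem ty (hx : x ∈ P) (hmin : ∀ z ∈ P, z ≠ 1 → x.support.card ≤ z.support.card) (h : x * x ≠ 1) :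
    ∀ w ∈ x.support, x (x w) ≠ w := by
  have : (x * x).support = x.support :=
    eq_of_subset_of_card_le (by simpa [pow_two] using Perm.support_pow_le x 2)
      (hmin _ (P.mul_mem hx hx) h)
  intro w hw
  rw [← this] at hw
  simpa using hw

section
variable (h4 : IsMultiplyPretransitive P Ω 4) (hn : 4 ≤ Fintype.card Ω) (hx : x ∈ P)
  (hmin : ∀ z ∈ P, z ≠ 1 → x.support.card ≤ z.support.card)
include h4 hn hx hmin

theorem case1 {u w : ℕ} (hm : x.support.card = 6 + u) (hf : (x.supportᶜ).card = 10 + u + w)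
    (h : 1 ≤ u + w) : False := by
  have k : ∀ g ∈ P, 0 ≤ tf 0 1 0 0 0 0 0 0 0 0 x (g * x * g⁻¹) := fun g hg => by
    rcases dich hx hmin hg with e | e
    · rw [tf_cm Perm.card_support_conj e]; simp
    · exact tf_nc e le_rfl zero_le_one le_rfl le_rfl le_rfl (by simp)
  have h' : (1 : ℚ) ≤ u + w := by exact_mod_cast h
  have hu : (0 : ℚ) ≤ u := by positivity
  have hw : (0 : ℚ) ≤ w := by positivity
  by_cases h2 : x * x = 1
  · have := master2 h4 hn (m := 6 + u) (f := 10 + u + w) (by rw [hm]; push_cast; ring)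
      (by rw [hf]; push_cast; ring) h2 k
    have e : (0 : ℚ) ≤ 10368*w + 2124*w^2 + 108*w^3 + 3648*u + 9936*u*w + 1680*u*w^2 + 72*u*w^3
      + 2032*u^2 + 3348*u^2*w + 455*u^2*w^2 + 15*u^2*w^3 + 396*u^3 + 516*u^3*w + 51*u^3*w^2
      + u^3*w^3 + 33*u^4 + 37*u^4*w + 2*u^4*w^2 + u^5 + u^5*w - 3648 * (u + w) := by
      have : (0 : ℚ) ≤ 6720*w + 2124*w^2 + 108*w^3 + 9936*u*w + 1680*u*w^2 + 72*u*w^3
        + 2032*u^2 + 3348*u^2*w + 455*u^2*w^2 + 15*u^2*w^3 + 396*u^3 + 516*u^3*w + 51*u^3*w^2
        + u^3*w^3 + 33*u^4 + 37*u^4*w + 2*u^4*w^2 + u^5 + u^5*w := by positivity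
      linarith
    simp only [xAC, xC2, xCD, xA1, xA2, xA3, xA4, xAD, P0, P1, P2, P3, P4] at this
    linarith
  · have := master3 h4 hn (m := 6 + u) (f := 10 + u + w) (by rw [hm]; push_cast; ring)
      (by rw [hf]; push_cast; ring) (ty hx hmin h2) k
    have e : (0 : ℚ) ≤ 13788*w + 2304*w^2 + 108*w^3 + 15708*u + 12120*u*w + 1776*u*w^2 + 72*u*w^3
      + 5566*u^2 + 3863*u^2*w + 472*u^2*w^2 + 15*u^2*w^3 + 905*u^3 + 569*u^3*w + 52*u^3*w^2
      + u^3*w^3 + 69*u^4 + 39*u^4*w + 2*u^4*w^2 + 2*u^5 + u^5*w := by positivity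
    simp only [xAC, xC3, xCD, xA1, xA2, xA3, xA4, xAD, P0, P1, P2, P3, P4] at this
    linarith

theorem sA_le : sA x y ≤ x.support.card := by rw [sA_eq]; exact_mod_cast aN_le
theorem sA_nn : 0 ≤ sA x y := by rw [sA_eq]; positivity

theorem case2o {u : ℕ} (hm : x.support.card = 9 + u) (hf : (x.supportᶜ).card = 11 + u)
    (h2 : x * x ≠ 1) : False := by
  have hu : (0 : ℚ) ≤ u := by positivity
  have hm' : (9 : ℚ) + u = x.support.card := by rw [hm]; push_cast; ring
  have := master3 h4 hn (m := 9 + u) (f := 11 + u) (α := 4 * (9 + u) ^ 2) (β := 0)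
    (l := 12 * (9 + u) ^ 3) (o := 12 * (9 + u) ^ 3) (q0 := 5 * (9 + u) ^ 4) (q1 := -40 * (9 + u) ^ 3)
    (q2 := 120 * (9 + u) ^ 2) (q3 := -160 * (9 + u)) (q4 := 80) hm'
    (by rw [hf]; push_cast; ring) (ty hx hmin h2) (fun g hg => by
      rcases dich hx hmin hg with e | e
      · rw [tf_cm Perm.card_support_conj e]
        have k := cm_O e
        rw [← hm'] at k
        have hp : (0 : ℚ) ≤ 9 + u := by positivity
        generalize (9 : ℚ) + u = m at *
        generalize sA x (g * x * g⁻¹) = a at *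
        have := mul_le_mul_of_nonneg_left k (by positivity : 0 ≤ 12 * m ^ 3)
        nlinarith [sq_nonneg (a ^ 2 - a * m + m ^ 2 / 10), sq_nonneg (m * (a - 9 / 10 * m))]
      · refine tf_nc e (by positivity) le_rfl (by positivity) le_rfl (by positivity) ?_
        generalize (9 : ℚ) + u = m
        generalize sA x (g * x * g⁻¹) = a
        nlinarith [sq_nonneg ((2 * a - m) ^ 2)])
  have e : (0 : ℚ) ≤ 1877472*u + 947325*u^2 + 219181*u^3 + 27396*u^4 + 1906*u^5 + 69*u^6 + u^7 := by
    positivity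
  simp only [xAC, xC3, xCD, xA1, xA2, xA3, xA4, xAD, P0, P1, P2, P3, P4] at this
  linarith

theorem case2e {u : ℕ} (hm : x.support.card = 18 + u) (hf : (x.supportᶜ).card = 20 + u)
    (h2 : x * x = 1) : False := by
  have hu : (0 : ℚ) ≤ u := by positivity
  have hm' : (18 : ℚ) + u = x.support.card := by rw [hm]; push_cast; ring
  have := master2 h4 hn (m := 18 + u) (f := 20 + u) (α := 8 * (18 + u) ^ 2) (β := 0)
    (l := 16 * (18 + u) ^ 3) (k := 20 * (18 + u) ^ 2) (q0 := 15 * (18 + u) ^ 4)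
    (q1 := -120 * (18 + u) ^ 3) (q2 := 360 * (18 + u) ^ 2) (q3 := -480 * (18 + u)) (q4 := 240) hm'
    (by rw [hf]; push_cast; ring) h2 (fun g hg => by
      rcases dich hx hmin hg with e | e
      · rw [tf_cm Perm.card_support_conj e]
        obtain ⟨d, d0, d1, d2, d3⟩ := cm_N h2 e
        rw [← hm'] at d1 d2
        have hp : (0 : ℚ) ≤ 18 + u := by positivity
        generalize (18 : ℚ) + u = m at *
        generalize sA x (g * x * g⁻¹) = a at *
        have k1 := mul_le_mul_of_nonneg_left d2 (by positivity : 0 ≤ 16 * m ^ 3)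
        have k2 := mul_le_mul_of_nonneg_left d3 (by positivity : 0 ≤ 20 * m ^ 2)
        rcases le_total 0 (20 * a - 16 * m) with k | k
        · have := mul_nonneg (mul_nonneg d0 k) (sq_nonneg m)
          nlinarith [sq_nonneg (a ^ 2 - a * m + 2 / 13 * m ^ 2), sq_nonneg (m * (a - 101 / 124 * m)),
            sq_nonneg (m ^ 2)]
        · have := mul_nonneg (mul_nonneg (sub_nonneg.mpr d1) (neg_nonneg.mpr k)) (sq_nonneg m)
          nlinarith [sq_nonneg (a ^ 2 - a * m + 1 / 6 * m ^ 2), sq_nonneg (m * (a - 5 / 6 * m))]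
      · refine tf_nc e (by positivity) le_rfl (by positivity) (by positivity) le_rfl ?_
        generalize (18 : ℚ) + u = m
        generalize sA x (g * x * g⁻¹) = a
        nlinarith [sq_nonneg ((2 * a - m) ^ 2)])
  have e : (0 : ℚ) ≤ 36746136*u + 10714320*u^2 + 1331628*u^3 + 88079*u^4 + 6495/2*u^5 + 63*u^6
    + 1/2*u^7 := by positivity
  simp only [xAC, xC2, xCD, xA1, xA2, xA3, xA4, xAD, P0, P1, P2, P3, P4] at this
  linarith

theorem case8 (hm : x.support.card = 8) (hf : (x.supportᶜ).card = 10) (h2 : x * x = 1) : False := by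
  have := master2 h4 hn (m := 8) (f := 10) (α := 15) (β := 0) (l := 270) (k := 45) (q0 := 2880)
    (q1 := -2736) (q2 := 952) (q3 := -144) (q4 := 8) (by rw [hm]; norm_num) (by rw [hf]; norm_num)
    h2 (fun g hg => by
      have hl := aN_le (x := x) (y := g * x * g⁻¹)
      rcases dich hx hmin hg with e | e
      · rw [tf_cm Perm.card_support_conj e]
        obtain ⟨d, d0, d1, d2, d3⟩ := cm_N h2 e
        obtain ⟨b, hb⟩ := cm_even h2 e
        rw [sA_eq, hm] at *
        generalize aN x (g * x * g⁻¹) = a at *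
        interval_cases a <;> first | omega | (push_cast at *; linarith)
      · refine tf_nc e (by positivity) le_rfl (by positivity) (by positivity) le_rfl ?_
        rw [sA_eq, hm] at *
        generalize aN x (g * x * g⁻¹) = a at *
        interval_cases a <;> norm_num)
  simp only [xAC, xC2, xCD, xA1, xA2, xA3, xA4, xAD, P0, P1, P2, P3, P4] at this
  norm_num at this

theorem case14 (hm : x.support.card = 14) (hf : (x.supportᶜ).card = 16) (h2 : x * x = 1) : False := by
  have := master2 h4 hn (m := 14) (f := 16) (α := 4) (β := 0) (l := 112) (k := 10) (q0 := 2160)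
    (q1 := -1302) (q2 := 289) (q3 := -28) (q4 := 1) (by rw [hm]; norm_num) (by rw [hf]; norm_num)
    h2 (fun g hg => by
      have hl := aN_le (x := x) (y := g * x * g⁻¹)
      rcases dich hx hmin hg with e | e
      · rw [tf_cm Perm.card_support_conj e]
        obtain ⟨d, d0, d1, d2, d3⟩ := cm_N h2 e
        rw [sA_eq, hm] at *
        generalize aN x (g * x * g⁻¹) = a at *
        interval_cases a <;> (push_cast at *; linarith)
      · refine tf_nc e (by positivity) le_rfl (by positivity) (by positivity) le_rfl ?_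
        rw [sA_eq, hm] at *
        generalize aN x (g * x * g⁻¹) = a at *
        interval_cases a <;> norm_num)
  simp only [xAC, xC2, xCD, xA1, xA2, xA3, xA4, xAD, P0, P1, P2, P3, P4] at this
  norm_num at this

theorem case3 {u : ℕ} (hm : x.support.card = 6 + u) (hf : (x.supportᶜ).card = 6 + u)
    (hc : ∀ g ∈ P, x * (g * x * g⁻¹) = (g * x * g⁻¹) * x → 2 * aN x (g * x * g⁻¹) ≤ 6 + u) :
    False := by
  have hu : (0 : ℚ) ≤ u := by positivity
  have hm' : (6 : ℚ) + u = x.support.card := by rw [hm]; push_cast; ring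
  have hc' : ∀ g ∈ P, x * (g * x * g⁻¹) = (g * x * g⁻¹) * x → 2 * sA x (g * x * g⁻¹) ≤ 6 + u :=
    fun g hg e => by rw [sA_eq]; exact_mod_cast hc g hg e
  by_cases h2 : x * x = 1
  · have := master2 h4 hn (m := 6 + u) (f := 6 + u) (α := 2) (β := 0) (l := 6 + u) (k := 2) (q0 := 0)
      (q1 := 0) (q2 := 0) (q3 := 0) (q4 := 0) hm' (by rw [hf]; push_cast; ring) h2 (fun g hg => by
        rcases dich hx hmin hg with e | e
        · rw [tf_cm Perm.card_support_conj e]
          obtain ⟨d, d0, d1, d2, d3⟩ := cm_N h2 e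
          have k := hc' g hg e
          have k0 := sA_nn h4 hn hx hmin (y := g * x * g⁻¹)
          rw [← hm'] at d1 d2
          have hp : (0 : ℚ) ≤ 6 + u := by positivity
          generalize (6 : ℚ) + u = m at *
          generalize sA x (g * x * g⁻¹) = a at *
          have k1 := mul_le_mul_of_nonneg_left d2 hp
          nlinarith [mul_nonneg (sub_nonneg.mpr d1) (sub_nonneg.mpr k),
            mul_nonneg k0 (sub_nonneg.mpr k)]
        · exact tf_nc e (by positivity) le_rfl (by positivity) (by positivity) le_rfl (by simp))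
    simp only [xAC, xC2, xCD, xA1, xA2, xA3, xA4, xAD, P0, P1, P2, P3, P4] at this
    have : (0 : ℚ) < 1 + u + u ^ 2 + u ^ 3 + u ^ 4 + u ^ 5 := by positivity
    nlinarith [pow_nonneg hu 2, pow_nonneg hu 3, pow_nonneg hu 4, pow_nonneg hu 5]
  · have := master3 h4 hn (m := 6 + u) (f := 6 + u) (α := 2) (β := 0) (l := 6 + u) (o := 6 + u)
      (q0 := 0) (q1 := 0) (q2 := 0) (q3 := 0) (q4 := 0) hm' (by rw [hf]; push_cast; ring)
      (ty hx hmin h2) (fun g hg => by
        rcases dich hx hmin hg with e | e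
        · rw [tf_cm Perm.card_support_conj e]
          have d2 := cm_O e
          have k := hc' g hg e
          have k0 := sA_nn h4 hn hx hmin (y := g * x * g⁻¹)
          rw [← hm'] at d2
          have hp : (0 : ℚ) ≤ 6 + u := by positivity
          generalize (6 : ℚ) + u = m at *
          generalize sA x (g * x * g⁻¹) = a at *
          have k1 := mul_le_mul_of_nonneg_left d2 hp
          nlinarith [mul_nonneg k0 (sub_nonneg.mpr k), mul_nonneg hp (sub_nonneg.mpr k)]
        · exact tf_nc e (by positivity) le_rfl (by positivity) le_rfl (by positivity) (by simp))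
    simp only [xAC, xC3, xCD, xA1, xA2, xA3, xA4, xAD, P0, P1, P2, P3, P4] at this
    nlinarith [pow_nonneg hu 2, pow_nonneg hu 3, pow_nonneg hu 4, pow_nonneg hu 5]

end

end H10.PF
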