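import Cfsg.Agent.H10.PF.D

/-! The four-transitive case, conclusion. -/
set_option autoImplicit false
set_option linter.unusedSectionVars false
set_option linter.unusedVariables false

namespace H10.PF
open Finset Equiv MulAction

variable {Ω : Type*} [Fintype Ω] [DecidableEq Ω] {P : Subgroup (Perm Ω)}

theorem exists_emb (U : Finset Ω) {k : ℕ} (h : U.card = k) :
    ∃ t : Fin k ↪ Ω, ∀ w, w ∈ U ↔ ∃ i, t i = w := by
  subst h
  refine ⟨U.equivFin.symm.toEmbedding.trans (Function.Embedding.subtype _), fun w => ⟨fun hw =>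
    ⟨U.equivFin ⟨w, hw⟩, by simp⟩, ?_⟩⟩
  rintro ⟨i, rfl⟩; exact (U.equivFin.symm i).2

theorem ft4 (h4 : IsMultiplyPretransitive P Ω 4) (hn : 4 ≤ Fintype.card Ω) (F : Finset Ω)
    (hF : 2 * F.card = Fintype.card Ω)
    (NS : ∀ g ∈ P, (∀ h ∈ P, (∀ w ∈ F, h w = w) → ∀ w, g⁻¹ w ∈ F → g⁻¹ (h w) ∈ F) →
      ∀ w ∈ F, g w ∈ F) : False := by
  have hFc : Fᶜ.card = F.card := by rw [card_compl]; omega
  obtain ⟨w0, hw0⟩ : F.Nonempty := card_pos.mp (by omega)
  obtain ⟨v0, hv0⟩ : Fᶜ.Nonempty := card_pos.mp (by omega)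
  have notA : ¬ alternatingGroup Ω ≤ P := fun hA => by
    have := alternatingGroup.isMultiplyPretransitive Ω
    have h1 : IsMultiplyPretransitive (alternatingGroup Ω) Ω F.card :=
      isMultiplyPretransitive_of_le (n := Nat.card Ω - 2)
        (by rw [Nat.card_eq_fintype_card]; omega) (Nat.sub_le _ _)
    obtain ⟨s, hs⟩ := exists_emb F rfl
    obtain ⟨t, ht⟩ := exists_emb Fᶜ hFc
    obtain ⟨⟨g, hg⟩, e⟩ := h1.exists_smul_eq s t
    have e' : ∀ i, g (s i) = t i := fun i => by rw [← e]; rfl
    have k : ∀ w, g⁻¹ w ∈ F ↔ w ∈ Fᶜ := fun w => by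
      rw [hs, ht]
      exact exists_congr fun i => by rw [Perm.eq_inv_iff_eq, e']
    have := NS g (hA hg) (fun h _ hh w hw => by
      rw [k, mem_compl] at *
      exact fun c => hw (by rwa [h.injective (hh _ c)] at c)) w0 hw0
    exact mem_compl.mp ((k (g w0)).mp (by simpa using hw0)) this
  have h2 : IsMultiplyPretransitive P Ω 2 :=
    isMultiplyPretransitive_of_le (by norm_num : 2 ≤ 4) (by rwa [Nat.card_eq_fintype_card])
  have prim := isPreprimitive_of_is_two_pretransitive h2
  have jp : ∀ p : ℕ, p.Prime → p + 3 = Fintype.card Ω → 3 < p → False := fun p hp e h3 => by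
    refine notA (H17.alt_le_of_prime_dvd P prim hp e.le (by omega) ?_)
    obtain ⟨t⟩ : Nonempty (Fin 4 ↪ Ω) := Function.Embedding.nonempty_of_card_le (by simpa using hn)
    have k := (stabilizer P t).index_dvd_card
    rw [@index_stabilizer_of_transitive P _ _ _ t h4, Nat.card_eq_fintype_card, Fintype.card_embedding_eq,
      Fintype.card_fin, Nat.descFactorial_succ, ← e, Nat.add_sub_cancel] at k
    exact (Dvd.intro _ rfl).trans k
  obtain ⟨h, hP, h1, hh⟩ : ∃ h ∈ P, h ≠ 1 ∧ ∀ w ∈ F, h w = w := by
    by_contra c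
    obtain ⟨⟨g, hg⟩, e⟩ := exists_smul_eq P w0 v0
    have := NS g hg (fun h hP hh w hw => by
      have : h = 1 := by by_contra c'; exact c ⟨h, hP, c', hh⟩
      simpa [this] using hw) w0 hw0
    exact mem_compl.mp hv0 (by rw [← e]; exact this)
  have hs : ∀ h : Perm Ω, (∀ w ∈ F, h w = w) → h.support ⊆ Fᶜ := fun h hh w hw =>
    mem_compl.mpr fun c => Perm.mem_support.mp hw (hh w c)
  have hh' : h.support.card ≤ F.card := hFc ▸ card_le_card (hs h hh)
  obtain ⟨x0, hx0, hmin0⟩ := exists_min_image ((SP P).erase 1) (fun z => z.support.card)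
    ⟨h, mem_erase.mpr ⟨h1, mSP.mpr hP⟩⟩
  obtain ⟨x1, x0P⟩ := mem_erase.mp hx0
  replace x0P := mSP.mp x0P
  replace hmin0 : ∀ z ∈ P, z ≠ 1 → x0.support.card ≤ z.support.card := fun z hz z1 =>
    hmin0 z (mem_erase.mpr ⟨z1, mSP.mpr hz⟩)
  have m6 : 6 ≤ x0.support.card := by
    by_contra c
    exact notA (H17.bochert_alt P (k := 4) (by norm_num) hn h4 x0 x0P x1 (by omega))
  have mf := hmin0 h hP h1
  rcases (mf.trans hh').eq_or_lt with e | lt
  · -- the stabilizer of `F` is semiregular
    have eS : ∀ z ∈ P, z ≠ 1 → (∀ w ∈ F, z w = w) → z.support = Fᶜ := fun z hz z1 hz' =>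
      eq_of_subset_of_card_le (hs z hz') (by have := hmin0 z hz z1; omega)
    have e1 := eS h hP h1 hh
    obtain ⟨u, hu⟩ : ∃ u, F.card = 6 + u := ⟨F.card - 6, by omega⟩
    refine case3 h4 hn hP (fun z hz z1 => by have := hmin0 z hz z1; omega) (u := u)
      (by rw [e1]; omega) (by rw [e1, compl_compl]; omega) fun g hg hc => ?_
    have hy : g * h * g⁻¹ ∈ P := P.mul_mem (P.mul_mem hg hP) (P.inv_mem hg)
    have fy : ∀ w, (g * h * g⁻¹) w = w ↔ g⁻¹ w ∈ F := fun w => by
      rw [cj_app, ← Perm.notMem_support, e1, notMem_compl]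
    generalize g * h * g⁻¹ = y at *
    by_cases c : ∃ k ∈ P, (∀ w ∈ F, k w = w) ∧ k * y ≠ y * k
    · obtain ⟨k, kP, kF, ky⟩ := c
      have yF : ∀ w ∈ F, y⁻¹ w ∈ F := fun w hw => by
        rw [← notMem_compl, ← e1, Perm.notMem_support]
        apply y.injective
        rw [capp hc]; simp [hh w hw]
      have dj : Disjoint (h.support.filter fun w => y w = w)
          ((h.support.filter fun w => y w = w).map k.toEmbedding) := by
        rw [disjoint_left]
        intro w hw hw'
        obtain ⟨v, hv, rfl⟩ := mem_map.mp hw'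
        simp only [mem_filter, coe_toEmbedding] at hw hv
        have z1 : k⁻¹ * (y * k * y⁻¹) = 1 := by
          by_contra z1
          have := eS _ (P.mul_mem (P.inv_mem kP) (P.mul_mem (P.mul_mem hy kP) (P.inv_mem hy))) z1
            (fun w hw => by
              simp only [Perm.mul_apply, kF _ (yF w hw), Perm.inv_eq_iff_eq, kF w hw]; simp)
          have hv1 := hv.1
          rw [e1, ← this, Perm.mem_support] at hv1
          have : y⁻¹ v = v := Perm.inv_eq_iff_eq.mpr hv.2.symm
          exact hv1 (by simp only [Perm.mul_apply, this, hw.2]; simp)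
        exact ky (eq_mul_inv_iff_mul_eq.mp (inv_mul_eq_one.mp z1))
      have sub : (h.support.filter fun w => y w = w) ∪
          ((h.support.filter fun w => y w = w).map k.toEmbedding) ⊆ Fᶜ := by
        refine union_subset (e1 ▸ filter_subset _ _) fun w hw => ?_
        obtain ⟨v, hv, rfl⟩ := mem_map.mp hw
        have hv1 := (mem_filter.mp hv).1
        rw [e1, mem_compl] at hv1
        exact mem_compl.mpr fun c => hv1 (by rwa [coe_toEmbedding, k.injective (kF _ c)] at c)
      have := card_le_card sub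
      rw [card_union_of_disjoint dj, card_map] at this
      unfold aN; omega
    · have := NS g hg fun k kP kF w hw => by
        have : k * y = y * k := by by_contra c'; exact c ⟨k, kP, kF, c'⟩
        rw [← fy] at *
        rw [capp this, hw]
      have e2 : F.map g.toEmbedding = F := eq_of_subset_of_card_le
        (fun w hw => by obtain ⟨v, hv, rfl⟩ := mem_map.mp hw; exact this v hv) (by simp)
      have : aN h y = 0 := by
        rw [aN, card_eq_zero, filter_eq_empty_iff]
        intro w hw c
        rw [e1, mem_compl] at hw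
        exact hw (e2 ▸ mem_map.mpr ⟨_, (fy w).mp c, by simp⟩)
      omega
  · obtain ⟨p, hp, pd⟩ := Nat.exists_prime_and_dvd (n := orderOf x0) (by simpa using x1)
    have ox := orderOf_pow_orderOf_div (orderOf_pos x0).ne' pd
    have xP := P.pow_mem x0P (orderOf x0 / p)
    have xs := Perm.support_pow_le x0 (orderOf x0 / p)
    generalize x0 ^ (orderOf x0 / p) = x at *
    have xm : x.support.card = x0.support.card := le_antisymm (card_le_card xs)
      (hmin0 x xP (by rintro rfl; simp at ox; exact hp.one_lt.ne ox))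
    rw [← xm] at hmin0 m6 lt
    have pm : p ∣ x.support.card := by
      obtain ⟨j, hj⟩ := Perm.cycleType_prime_order (σ := x) (ox ▸ hp)
      rw [← Perm.sum_cycleType, hj, ox]; simp
    have hc := card_compl x.support
    by_cases c : x.support.card + 2 ≤ F.card
    · by_cases c' : F.card = 8
      · exact jp 13 (by norm_num) (by omega) (by norm_num)
      · exact case1 h4 hn xP hmin0 (u := x.support.card - 6)
          (w := 2 * F.card - 2 * x.support.card - 4) (by omega) (by omega) (by omega)
    have j1 : F.card ≠ 7 := fun e => jp 11 (by norm_num) (by omega) (by norm_num)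
    have j2 : F.card ≠ 8 := fun e => jp 13 (by norm_num) (by omega) (by norm_num)
    have j3 : F.card ≠ 11 := fun e => jp 19 (by norm_num) (by omega) (by norm_num)
    have j4 : F.card ≠ 13 := fun e => jp 23 (by norm_num) (by omega) (by norm_num)
    have j5 : F.card ≠ 17 := fun e => jp 31 (by norm_num) (by omega) (by norm_num)
    by_cases x2 : x * x = 1
    · have ev := Perm.two_dvd_card_support (σ := x) (by rw [pow_two, x2])
      by_cases c8 : x.support.card = 8
      · exact case8 h4 hn xP hmin0 c8 (by omega) x2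
      by_cases c14 : x.support.card = 14
      · exact case14 h4 hn xP hmin0 c14 (by omega) x2
      exact case2e h4 hn xP hmin0 (u := x.support.card - 18) (by omega) (by omega) x2
    · have c8 : x.support.card ≠ 8 := fun e => by
        rw [e] at pm
        have : p = 2 := (Nat.prime_dvd_prime_iff_eq hp Nat.prime_two).mp
          (hp.dvd_of_dvd_pow (n := 3) pm)
        exact x2 (by rw [← pow_two, ← this, ← ox, pow_orderOf_eq_one])
      exact case2o h4 hn xP hmin0 (u := x.support.card - 9) (by omega) (by omega) x2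

end H10.PF
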