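import Mathlib

/-! Pronormal subgroups and their fixed points: blocks and suborbits. -/
set_option autoImplicit false
set_option linter.unusedSectionVars false
set_option linter.unusedVariables false

namespace H10.PF
open Finset MulAction Pointwise

variable {G : Type} [Group G] {K L : Subgroup G} {X : Type} [MulAction G X]

def Nm (K : Subgroup G) (v : G) : Prop := ∀ k, k ∈ K ↔ v * k * v⁻¹ ∈ K

def PN (K L : Subgroup G) : Prop := K ≤ L ∧ ∀ g ∈ L, ∃ v, Nm K v ∧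
  ∀ U : Subgroup G, K ≤ U → (∀ k ∈ K, g * k * g⁻¹ ∈ U) → g * v⁻¹ ∈ U

def fx (K : Subgroup G) (x : X) : Prop := ∀ k ∈ K, k • x = x

open Classical in
noncomputable def Fx (K : Subgroup G) (D : Finset X) : Finset X := D.filter (fx K)

noncomputable def df (K : Subgroup G) (D : Finset X) : ℤ := D.card - 2 * (Fx K D).card

def Inv (L : Subgroup G) (D : Finset X) : Prop := ∀ g ∈ L, ∀ x ∈ D, g • x ∈ D

structure Orb (L : Subgroup G) (D : Finset X) : Prop where
  inv : Inv L D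
  tr : ∀ x ∈ D, ∀ y ∈ D, ∃ g ∈ L, g • x = y

def NT (K : Subgroup G) (D : Finset X) : Prop := ∃ x ∈ D, ¬ fx K x

def R (L : Subgroup G) (x y x' y' : X) : Prop := ∃ g ∈ L, g • x = x' ∧ g • y = y'

def T2 (L : Subgroup G) (D : Finset X) : Prop :=
  ∀ x ∈ D, ∀ y ∈ D, ∀ x' ∈ D, ∀ y' ∈ D, x ≠ y → x' ≠ y' → R L x y x' y'

def Claim (K : Subgroup G) (n : ℕ) : Prop := ∀ (X : Type) [MulAction G X] (L : Subgroup G)
  (D : Finset X), PN K L → Orb L D → NT K D → D.card = n → 1 ≤ df K D ∧ (df K D = 1 → T2 L D)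

theorem mFx {D : Finset X} {x : X} : x ∈ Fx K D ↔ x ∈ D ∧ fx K x := by simp [Fx]

theorem R.refl (x y : X) : R L x y x y := ⟨1, L.one_mem, by simp, by simp⟩
theorem R.symm {x y x' y' : X} (h : R L x y x' y') : R L x' y' x y := by
  obtain ⟨g, hg, rfl, rfl⟩ := h
  exact ⟨g⁻¹, L.inv_mem hg, by simp, by simp⟩
theorem R.trans {x y x' y' a b : X} (h : R L x y x' y') (h' : R L x' y' a b) : R L x y a b := by
  obtain ⟨g, hg, rfl, rfl⟩ := h
  obtain ⟨g', hg', rfl, rfl⟩ := h'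
  exact ⟨g' * g, L.mul_mem hg' hg, mul_smul .., mul_smul ..⟩
theorem R.swap {x y x' y' : X} (h : R L x y x' y') : R L y x y' x' := by
  obtain ⟨g, hg, e1, e2⟩ := h
  exact ⟨g, hg, e2, e1⟩
theorem R.ne {x y x' y' : X} (h : R L x y x' y') (hne : x' ≠ y') : x ≠ y := by
  obtain ⟨g, hg, rfl, rfl⟩ := h
  exact fun e => hne (by rw [e])
theorem R.smul {g : G} (hg : g ∈ L) (x y : X) : R L x y (g • x) (g • y) := ⟨g, hg, rfl, rfl⟩

theorem Nm.inv {v : G} (h : Nm K v) : Nm K v⁻¹ := fun k => by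
  rw [h (v⁻¹ * k * v⁻¹⁻¹)]; simp [mul_assoc]

theorem Nm.fx {v : G} (h : Nm K v) {x : X} (hx : fx K x) : fx K (v • x) := fun k hk => by
  have := hx _ ((h.inv k).mp hk)
  rw [mul_smul, mul_smul, inv_smul_eq_iff, inv_inv] at this
  exact this

theorem Nm.fx' {v : G} (h : Nm K v) {x : X} : H10.PF.fx K (v • x) ↔ H10.PF.fx K x :=
  ⟨fun hx => by simpa using h.inv.fx hx, h.fx⟩

theorem Nm.of_mem {k : G} (hk : k ∈ K) : Nm K k := fun a =>
  ⟨fun h => K.mul_mem (K.mul_mem hk h) (K.inv_mem hk), fun h => by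
    simpa [mul_assoc] using K.mul_mem (K.mul_mem (K.inv_mem hk) h) hk⟩

theorem PN.mono (h : PN K L) {L' : Subgroup G} (h1 : K ≤ L') (h2 : L' ≤ L) : PN K L' :=
  ⟨h1, fun g hg => h.2 g (h2 hg)⟩

theorem PN.ex (h : PN K L) {g : G} (hg : g ∈ L) : ∃ v ∈ L, Nm K v ∧
    ∀ U : Subgroup G, K ≤ U → (∀ k ∈ K, g * k * g⁻¹ ∈ U) → g * v⁻¹ ∈ U := by
  obtain ⟨v, h1, h2⟩ := h.2 g hg
  have := h2 L h.1 fun k hk => L.mul_mem (L.mul_mem hg (h.1 hk)) (L.inv_mem hg)
  exact ⟨v, by simpa using L.inv_mem (L.mul_mem (L.inv_mem hg) this), h1, h2⟩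

theorem PN.wit (h : PN K L) {g : G} (hg : g ∈ L) {a : X} (h1 : fx K a) (h2 : fx K (g • a)) :
    ∃ v ∈ L, Nm K v ∧ v • a = g • a := by
  obtain ⟨v, hv, n, u⟩ := h.ex hg
  have := u (stabilizer G (g • a)) h2 fun k hk => by simp [mul_smul, h1 k hk]
  refine ⟨v, hv, n, ?_⟩
  rw [mem_stabilizer_iff, mul_smul, smul_left_cancel_iff, inv_smul_eq_iff] at this
  exact this.symm

theorem PN.ns (h : PN K L) {D : Finset X} (hD : Inv L D) {g : G} (hg : g ∈ L)
    (hs : ∀ k ∈ K, ∀ x ∈ D, fx K (g⁻¹ • x) → fx K (g⁻¹ • k • x)) : ∀ x ∈ D, fx K x → fx K (g • x) := by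
  obtain ⟨v, hv, n, u⟩ := h.ex (L.inv_mem hg)
  have a : ∀ w ∈ L, ∀ x, w • x ∈ D ↔ x ∈ D := fun w hw x =>
    ⟨fun e => by simpa using hD _ (L.inv_mem hw) _ e, hD _ hw _⟩
  have b : ∀ w ∈ L, Nm K w → w ∈ stabilizer G {x | x ∈ D ∧ fx K x} := fun w hw e =>
    mem_stabilizer_set.mpr fun x => by simp only [Set.mem_ofPred_eq, a w hw, e.fx']
  have c : ∀ k ∈ K, ∀ x, x ∈ D ∧ fx K x → (g⁻¹ * k * g⁻¹⁻¹) • x ∈ D ∧ fx K ((g⁻¹ * k * g⁻¹⁻¹) • x) :=
    fun k hk x hx => ⟨hD _ (L.mul_mem (L.mul_mem (L.inv_mem hg) (h.1 hk)) (by simpa)) _ hx.1, by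
      simpa [mul_smul] using hs k hk (g • x) (hD _ hg _ hx.1) (by simpa using hx.2)⟩
  have := u (stabilizer G {x | x ∈ D ∧ fx K x}) (fun k hk => b k (h.1 hk) (Nm.of_mem hk))
    fun k hk => mem_stabilizer_set.mpr fun x => ⟨fun e => by
      simpa [mul_smul] using c k⁻¹ (K.inv_mem hk) _ e, c k hk x⟩
  have e := Subgroup.inv_mem _ (Subgroup.mul_mem _ this (b v hv n))
  simp only [inv_mul_cancel_right, inv_inv] at e
  exact fun x hx hf => (mem_stabilizer_set.mp e x |>.mpr ⟨hx, hf⟩).2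

theorem fib_card {Y : Type} [DecidableEq Y] (T : Finset X) (p : X → Y) (b : ℕ)
    (h : ∀ x ∈ T, (T.filter fun y => p y = p x).card = b) : T.card = (T.image p).card * b := by
  rw [card_eq_sum_card_image p T, sum_congr rfl (g := fun _ => b)]
  · simp
  · intro y hy
    obtain ⟨x, hx, rfl⟩ := mem_image.mp hy
    exact h x hx

open Classical in
/-- the canonical block -/
noncomputable def bl (K L : Subgroup G) (D : Finset X) (b : X) : Finset X :=
  D.filter fun y => ∀ g ∈ L, fx K (g • b) → fx K (g • y)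

theorem mbl {D : Finset X} {b y : X} :
    y ∈ bl K L D b ↔ y ∈ D ∧ ∀ g ∈ L, fx K (g • b) → fx K (g • y) := by simp [bl]

theorem blk {n : ℕ} (ih : ∀ m < n, Claim K m) {D : Finset X} (h : PN K L) (o : Orb L D) (nt : NT K D)
    (hn : D.card = n) {a : X} (ha : a ∈ D) (fa : fx K a) (h2 : 2 ≤ (bl K L D a).card) :
    ((bl K L D a).card : ℤ) ≤ df K D := by
  classical
  have eq : ∀ g ∈ L, ∀ b, bl K L D (g • b) = g • bl K L D b := fun g hg b => by
    ext y
    rw [← inv_smul_mem_iff, mbl, mbl]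
    refine and_congr ⟨o.inv _ (L.inv_mem hg) _, fun e => by simpa using o.inv _ hg _ e⟩
      ⟨fun e w hw k => ?_, fun e w hw k => ?_⟩
    · simpa [mul_smul] using e (w * g⁻¹) (L.mul_mem hw (L.inv_mem hg)) (by simpa [mul_smul] using k)
    · simpa [mul_smul] using e (w * g) (L.mul_mem hw hg) (by simpa [mul_smul] using k)
  have cd : ∀ b ∈ D, (bl K L D b).card = (bl K L D a).card := fun b hb => by
    obtain ⟨g, hg, rfl⟩ := o.tr a ha b hb
    rw [eq g hg, card_smul_finset]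
  have fb : ∀ b ∈ D, (D.filter fun y => bl K L D y = bl K L D b) = bl K L D b := fun b hb => by
    ext y
    rw [mem_filter]
    refine ⟨fun e => e.2 ▸ mbl.mpr ⟨e.1, fun _ _ k => k⟩, fun e => ⟨(mbl.mp e).1,
      eq_of_subset_of_card_le (fun z hz => mbl.mpr ⟨(mbl.mp hz).1, fun g hg k =>
        (mbl.mp hz).2 g hg ((mbl.mp e).2 g hg k)⟩) (by rw [cd b hb, cd y (mbl.mp e).1])⟩⟩
  have c1 := fib_card D (bl K L D) _ fun b hb => by rw [fb b hb, cd b hb]
  have o' : Orb L (D.image (bl K L D)) := ⟨fun g hg B hB => by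
      obtain ⟨b, hb, rfl⟩ := mem_image.mp hB
      exact mem_image.mpr ⟨_, o.inv g hg b hb, eq g hg b⟩, fun B hB C hC => by
      obtain ⟨b, hb, rfl⟩ := mem_image.mp hB
      obtain ⟨c, hc, rfl⟩ := mem_image.mp hC
      obtain ⟨g, hg, rfl⟩ := o.tr b hb c hc
      exact ⟨g, hg, (eq g hg b).symm⟩⟩
  have c2 : (Fx K D).card ≤ (bl K L D a).card * (Fx K (D.image (bl K L D))).card := by
    refine card_le_mul_card_image_of_maps_to (f := bl K L D) (fun b hb => mFx.mpr
      ⟨mem_image_of_mem _ (mFx.mp hb).1, fun k hk => by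
        rw [← eq k (h.1 hk), (mFx.mp hb).2 k hk]⟩) _ fun B hB => ?_
    obtain ⟨b, hb, rfl⟩ := mem_image.mp (mFx.mp hB).1
    rw [← cd b hb]
    exact (card_le_card (filter_subset_filter _ fun y hy => (mFx.mp hy).1)).trans
      (congrArg card (fb b hb)).le
  have nt' : NT K (D.image (bl K L D)) := by
    by_contra c
    have c' : ∀ b ∈ D, fx K (bl K L D b) := fun b hb => by
      by_contra e; exact c ⟨_, mem_image_of_mem _ hb, e⟩
    obtain ⟨s, hs, ns⟩ := nt
    obtain ⟨g, hg, rfl⟩ := o.tr a ha s hs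
    obtain ⟨v, hv, n1, u⟩ := h.ex hg
    have := u (stabilizer G (bl K L D (v • a))) (c' _ (o.inv v hv a ha)) fun k hk => by
      have := c' _ (o.inv _ (L.inv_mem hg) _ (o.inv v hv a ha)) k hk
      rw [eq _ (L.inv_mem hg)] at this
      rw [mem_stabilizer_iff, mul_smul, mul_smul, this, smul_inv_smul]
    rw [mem_stabilizer_iff, ← eq _ (L.mul_mem hg (L.inv_mem hv)), mul_smul, inv_smul_smul] at this
    have m : g • a ∈ bl K L D (v • a) := this ▸ mbl.mpr ⟨hs, fun _ _ k => k⟩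
    exact ns (by simpa using (mbl.mp m).2 1 L.one_mem (by simpa using n1.fx fa))
  have pos : 0 < (D.image (bl K L D)).card := card_pos.mpr ⟨_, mem_image_of_mem _ ha⟩
  have := (ih _ (by nlinarith) _ L _ h o' nt' rfl).1
  unfold df at *
  have c2' : ((Fx K D).card : ℤ) ≤ (bl K L D a).card * (Fx K (D.image (bl K L D))).card := by
    exact_mod_cast c2
  rw [c1]; push_cast
  nlinarith [(Nat.cast_nonneg (bl K L D a).card : (0 : ℤ) ≤ _)]

open Classical in
/-- suborbits -/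
noncomputable def ob (L : Subgroup G) (D : Finset X) (a b : X) : Finset X :=
  D.filter fun y => R L a b a y

theorem mob {D : Finset X} {a b y : X} : y ∈ ob L D a b ↔ y ∈ D ∧ R L a b a y := by simp [ob]

abbrev St (L : Subgroup G) (a : X) : Subgroup G := L ⊓ stabilizer G a

theorem mSt {a : X} {g : G} : g ∈ St L a ↔ g ∈ L ∧ g • a = a := Iff.rfl

theorem PN.st (h : PN K L) {a : X} (fa : fx K a) : PN K (St L a) :=
  h.mono (le_inf h.1 fa) inf_le_left

theorem ob_orb {D : Finset X} (o : Inv L D) (a b : X) : Orb (St L a) (ob L D a b) :=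
  ⟨fun g hg y hy => mob.mpr ⟨o g hg.1 y (mob.mp hy).1, (mob.mp hy).2.trans ⟨g, hg.1, hg.2, rfl⟩⟩,
    fun x hx y hy => by
      obtain ⟨g, hg, e1, e2⟩ := (mob.mp hx).2.symm.trans (mob.mp hy).2
      exact ⟨g, ⟨hg, e1⟩, e2⟩⟩

theorem ob_self {D : Finset X} {a b : X} (hb : b ∈ D) : b ∈ ob L D a b := mob.mpr ⟨hb, R.refl ..⟩

open Classical in
theorem ob_sub {D T : Finset X} {a b : X} (hT : Inv (St L a) T) (hb : b ∈ T) : ob L D a b ⊆ T := by
  intro y hy
  obtain ⟨g, hg, e1, rfl⟩ := (mob.mp hy).2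
  exact hT g ⟨hg, e1⟩ b hb

open Classical in
theorem Inv.sdiff {S T : Finset X} (hS : Inv L S) (hT : Inv L T) : Inv L (S \ T) := fun g hg x hx =>
  mem_sdiff.mpr ⟨hS g hg x (mem_sdiff.mp hx).1, fun e => (mem_sdiff.mp hx).2 (by
    simpa using hT _ (L.inv_mem hg) _ e)⟩

open Classical in
theorem Inv.erase {D : Finset X} (o : Inv L D) (a : X) : Inv (St L a) (D.erase a) := fun g hg x hx =>
  mem_erase.mpr ⟨fun e => (mem_erase.mp hx).1 (by
    rw [← (mSt.mp hg).2, smul_left_cancel_iff] at e; exact e), o g hg.1 x (mem_erase.mp hx).2⟩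

open Classical in
theorem df_sdiff {S T : Finset X} (h : T ⊆ S) : df K S = df K T + df K (S \ T) := by
  have h1 := card_sdiff_add_card_eq_card h
  have h2 : Fx K (S \ T) = Fx K S \ Fx K T := by ext; simp only [mFx, mem_sdiff]; tauto
  have h3 := card_sdiff_add_card_eq_card (s := Fx K T) (t := Fx K S)
    fun x hx => mFx.mpr ⟨h (mFx.mp hx).1, (mFx.mp hx).2⟩
  unfold df; rw [h2]; omega

open Classical in
theorem df_erase {D : Finset X} {a : X} (ha : a ∈ D) (fa : fx K a) :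
    df K (D.erase a) = df K D + 1 := by
  have := df_sdiff (K := K) (singleton_subset_iff.mpr ha)
  have e : Fx K ({a} : Finset X) = {a} := by ext x; simp only [mFx, mem_singleton]; aesop
  rw [sdiff_singleton_eq_erase, df.eq_def K {a}, e] at this
  simp at this; omega

open Classical in
/-- the local structure at a fixed point -/
structure Loc (K L : Subgroup G) (D : Finset X) (a : X) : Prop where
  nt : ∀ b ∈ D, b ≠ a → NT K (ob L D a b)
  one : ∀ b ∈ D, b ≠ a → 1 ≤ df K (ob L D a b)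
  two : ∀ b ∈ D, b ≠ a → df K (ob L D a b) = 1 → T2 (St L a) (ob L D a b)
  inv : ∀ T ⊆ D.erase a, Inv (St L a) T → T.Nonempty → 1 ≤ df K T

theorem loc {n : ℕ} (ih : ∀ m < n, Claim K m) {D : Finset X} (h : PN K L) (o : Orb L D)
    (hn : D.card = n) {a : X} (ha : a ∈ D) (fa : fx K a) (h2 : (bl K L D a).card < 2) :
    Loc K L D a := by
  classical
  have nt : ∀ b ∈ D, b ≠ a → NT K (ob L D a b) := fun b hb ne => by
    by_contra c
    have : b ∈ bl K L D a := mbl.mpr ⟨hb, fun g hg k => by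
      obtain ⟨v, hv, n1, e⟩ := h.wit hg fa k
      have : (v⁻¹ * g) • b ∈ ob L D a b := mob.mpr ⟨o.inv _ (L.mul_mem (L.inv_mem hv) hg) _ hb,
        _, L.mul_mem (L.inv_mem hv) hg, by rw [mul_smul, ← e, inv_smul_smul], rfl⟩
      have : fx K ((v⁻¹ * g) • b) := by by_contra c'; exact c ⟨_, this, c'⟩
      rwa [mul_smul, n1.inv.fx'] at this⟩
    exact ne (card_le_one.mp (by omega) _ this _ (mbl.mpr ⟨ha, fun _ _ k => k⟩))
  have cl : ∀ b ∈ D, b ≠ a → 1 ≤ df K (ob L D a b) ∧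
      (df K (ob L D a b) = 1 → T2 (St L a) (ob L D a b)) := fun b hb ne => by
    refine ih _ ?_ _ _ _ (h.st fa) (ob_orb o.inv a b) (nt b hb ne) rfl
    have := card_le_card (ob_sub (D := D) (o.inv.erase a) (mem_erase.mpr ⟨ne, hb⟩))
    have := card_erase_lt_of_mem ha
    omega
  refine ⟨nt, fun b hb ne => (cl b hb ne).1, fun b hb ne => (cl b hb ne).2, fun T => ?_⟩
  induction T using Finset.strongInduction with
  | H T IH =>
    rintro hT i ⟨b, hb⟩
    have s := ob_sub (D := D) i hb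
    have := (cl b (mem_erase.mp (hT hb)).2 (mem_erase.mp (hT hb)).1).1
    rw [df_sdiff s]
    rcases (T \ ob L D a b).eq_empty_or_nonempty with e | e
    · rw [e]; simpa [df, Fx] using this
    · have := IH _ (sdiff_ssubset s ⟨b, ob_self (mem_erase.mp (hT hb)).2⟩)
        (sdiff_subset.trans hT) (i.sdiff (ob_orb o.inv a b).inv) e
      omega

end H10.PF
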