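import Cfsg.Agent.H10.PF.F

/-! Pronormal subgroups and their fixed points: doubly transitive suborbits. -/
set_option autoImplicit false
set_option linter.unusedSectionVars false
set_option linter.unusedVariables false

namespace H10.PF
open Finset MulAction Pointwise

variable {G : Type} [Group G] {K L : Subgroup G} {X : Type} [MulAction G X] {D : Finset X} {a : X}

def Cc (L : Subgroup G) (D : Finset X) (a b c : X) : Prop :=
  ∀ x ∈ D, ∀ y ∈ D, ∀ z ∈ D, R L x y a b → R L x z a b → y ≠ z → R L y z a c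

open Classical in
noncomputable def nb (L : Subgroup G) (D : Finset X) (a b x : X) : Finset X :=
  D.filter fun y => R L x y a b

theorem mnb {b x y : X} : y ∈ nb L D a b x ↔ y ∈ D ∧ R L x y a b := by simp [nb]

open Classical in
theorem nb_smul (o : Inv L D) {g : G} (hg : g ∈ L) (b x : X) :
    nb L D a b (g • x) = g • nb L D a b x := by
  ext y
  rw [← inv_smul_mem_iff, mnb, mnb]
  refine and_congr ⟨o _ (L.inv_mem hg) _, fun e => by simpa using o _ hg _ e⟩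
    ⟨fun e => R.trans (by simpa using R.smul hg x (g⁻¹ • y)) e,
     fun e => R.trans (by simpa using (R.smul hg x (g⁻¹ • y)).symm) e⟩

theorem nb_a (b : X) : nb L D a b a = ob L D a b := by
  ext y; rw [mnb, mob]; exact and_congr Iff.rfl ⟨R.symm, R.symm⟩

section
variable (h : PN K L) (o : Orb L D) (ha : a ∈ D) (fa : fx K a) (l : Loc K L D a)
include h o ha fa l

theorem nb_card (b : X) {x : X} (hx : x ∈ D) : (nb L D a b x).card = (ob L D a b).card := by
  classical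
  obtain ⟨g, hg, rfl⟩ := o.tr a ha x hx
  rw [nb_smul o.inv hg, card_smul_finset, nb_a]

theorem nb_fx (b : X) {x : X} (hx : x ∈ D) (f : fx K x) :
    (Fx K (nb L D a b x)).card = (Fx K (ob L D a b)).card := by
  classical
  obtain ⟨g, hg, rfl⟩ := o.tr a ha x hx
  obtain ⟨v, hv, n, e⟩ := h.wit hg fa f
  rw [← e, nb_smul o.inv hv, nb_a, ← card_smul_finset v (Fx K (ob L D a b))]
  congr 1
  ext y
  rw [mFx, ← inv_smul_mem_iff, ← inv_smul_mem_iff, mFx, n.inv.fx']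

theorem big {b : X} (hb : b ∈ D) (ne : b ≠ a) (d : df K (ob L D a b) = 1) :
    1 ≤ (Fx K (ob L D a b)).card := by
  classical
  obtain ⟨s, hs, ns⟩ := l.nt b hb ne
  obtain ⟨k, hk, e⟩ : ∃ k ∈ K, k • s ≠ s := by simpa [fx] using ns
  have m := (ob_orb o.inv a b).inv k ⟨h.1 hk, fa k hk⟩ s hs
  have sub : {s, k • s} ⊆ ob L D a b \ Fx K (ob L D a b) := by
    intro z hz
    simp only [mem_insert, mem_singleton] at hz
    rcases hz with rfl | rfl
    · exact mem_sdiff.mpr ⟨hs, fun c => ns (mFx.mp c).2⟩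
    · exact mem_sdiff.mpr ⟨m, fun c => ns ((Nm.of_mem hk).fx'.mp (mFx.mp c).2)⟩
  have c1 := card_le_card sub
  have c2 := card_sdiff_add_card_eq_card (s := Fx K (ob L D a b)) (t := ob L D a b)
    fun x hx => (mFx.mp hx).1
  rw [card_pair e.symm] at c1
  unfold df at d; omega

theorem two {b : X} (hb : b ∈ D) (ne : b ≠ a) (d : df K (ob L D a b) = 1) :
    ∃ y ∈ D, ∃ z ∈ D, y ≠ z ∧ R L a y a b ∧ R L a z a b := by
  have := big h o ha fa l hb ne d
  obtain ⟨y, hy, z, hz, e⟩ := one_lt_card.mp (show 1 < (ob L D a b).card by unfold df at d; omega)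
  exact ⟨y, (mob.mp hy).1, z, (mob.mp hz).1, e, (mob.mp hy).2.symm, (mob.mp hz).2.symm⟩

theorem exC {b : X} (hb : b ∈ D) (ne : b ≠ a) (d : df K (ob L D a b) = 1) :
    ∃ c ∈ D, c ≠ a ∧ Cc L D a b c := by
  obtain ⟨y0, hy, z0, hz, e, r1, r2⟩ := two h o ha fa l hb ne d
  obtain ⟨g, hg, e1⟩ := o.tr y0 hy a ha
  refine ⟨g • z0, o.inv g hg _ hz, fun c => e (by rw [← e1, smul_left_cancel_iff] at c; exact c.symm),
    fun x hx y hy' z hz' s1 s2 yz => ?_⟩
  obtain ⟨u, hu, rfl, rfl⟩ := s1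
  obtain ⟨w, hw, f1, f2⟩ := l.two _ hb ne d _ (ob_self hb) (u • z)
    (mob.mpr ⟨o.inv u hu _ hz', s2.symm.trans (R.smul hu ..)⟩) y0 (mob.mpr ⟨hy, r1.symm⟩) z0
    (mob.mpr ⟨hz, r2.symm⟩) (fun c => yz (smul_left_cancel _ c)) e
  exact (R.smul hu ..).trans (R.trans ⟨w, hw.1, f1, f2⟩ ⟨g, hg, e1, rfl⟩)

theorem uq {b b' c c' : X} (hb : b ∈ D) (ne : b ≠ a) (d : df K (ob L D a b) = 1)
    (h1 : Cc L D a b c) (h2 : Cc L D a b' c') (r : R L a b a b') : R L a c a c' := by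
  obtain ⟨y, hy, z, hz, e, r1, r2⟩ := two h o ha fa l hb ne d
  exact (h1 a ha y hy z hz r1 r2 e).symm.trans (h2 a ha y hy z hz (r1.trans r) (r2.trans r) e)

theorem sy {b c : X} (hb : b ∈ D) (ne : b ≠ a) (d : df K (ob L D a b) = 1)
    (h1 : Cc L D a b c) {x y : X} (r : R L x y a c) : R L y x a c := by
  obtain ⟨y, hy, z, hz, e, r1, r2⟩ := two h o ha fa l hb ne d
  exact r.swap.trans ((h1 a ha y hy z hz r1 r2 e).swap.symm.trans (h1 a ha z hz y hy r2 r1 e.symm))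

theorem qq {b c : X} (hb : b ∈ D) (ne : b ≠ a) (d : df K (ob L D a b) = 1) (h0 : Cc L D a b c)
    (r : R L a c a b) (d1 : 0 < df K D) (d2 : df K D ≤ 2) : False := by
  classical
  have h1 : Cc L D a b b := fun x hx y hy z hz s1 s2 e => (h0 x hx y hy z hz s1 s2 e).trans r
  have nm : ∀ x, x ∉ nb L D a b x := fun x c => (mnb.mp c).2.ne ne.symm rfl
  have sub : ∀ x ∈ D, ∀ y ∈ D, R L x y a b → insert y (nb L D a b y) ⊆ insert x (nb L D a b x) := by
    intro x hx y hy s z hz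
    rcases mem_insert.mp hz with rfl | hz
    · exact mem_insert_of_mem (mnb.mpr ⟨hy, s⟩)
    · by_cases e : x = z
      · exact mem_insert.mpr (Or.inl e.symm)
      · exact mem_insert_of_mem (mnb.mpr ⟨(mnb.mp hz).1, h1 y hy x hx z (mnb.mp hz).1
          (sy h o ha fa l hb ne d h1 s) (mnb.mp hz).2 e⟩)
  have fb : ∀ x ∈ D, ∀ y, (y ∈ D ∧ insert y (nb L D a b y) = insert x (nb L D a b x))
      ↔ y ∈ insert x (nb L D a b x) := fun x hx y => ⟨fun e => e.2 ▸ mem_insert_self _ _, fun e => by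
    rcases mem_insert.mp e with rfl | e
    · exact ⟨hx, rfl⟩
    · exact ⟨(mnb.mp e).1, (sub x hx y (mnb.mp e).1 (mnb.mp e).2).antisymm
        (sub y (mnb.mp e).1 x hx (sy h o ha fa l hb ne d h1 (mnb.mp e).2))⟩⟩
  have c1 := fib_card D (fun x => insert x (nb L D a b x)) ((ob L D a b).card + 1) fun x hx => by
    rw [← nb_card h o ha fa l b hx, ← card_insert_of_notMem (nm x)]
    congr 1; ext y; rw [mem_filter, fb x hx]
  have c2 := fib_card (Fx K D) (fun x => insert x (nb L D a b x)) ((Fx K (ob L D a b)).card + 1)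
    fun x hx => by
      obtain ⟨hx, f⟩ := mFx.mp hx
      rw [← nb_fx h o ha fa l b hx f,
        ← card_insert_of_notMem (fun c => nm x (mFx.mp c).1 : x ∉ Fx K (nb L D a b x))]
      congr 1; ext y
      rw [mem_filter, mFx, and_right_comm, fb x hx, mem_insert, mem_insert, mFx]
      constructor
      · rintro ⟨e | e, f⟩ <;> simp [*]
      · rintro (rfl | e) <;> simp [*]
  have := big h o ha fa l hb ne d
  unfold df at d d1 d2
  rw [c1, c2] at d1 d2
  generalize (D.image fun x => insert x (nb L D a b x)).card = A at *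
  generalize ((Fx K D).image fun x => insert x (nb L D a b x)).card = B at *
  generalize (Fx K (ob L D a b)).card = f at *
  have e : ((ob L D a b).card : ℤ) = 2 * f + 1 := by omega
  push_cast at d1 d2
  rw [e] at d1 d2
  have f1 : (1 : ℤ) ≤ f := by exact_mod_cast this
  rcases le_or_gt (A : ℤ) B with k | k <;> nlinarith

theorem col {x y : X} (hx : x ∈ D) (hy : y ∈ D) (e : x ≠ y) : ∃ b ∈ D, b ≠ a ∧ R L x y a b := by
  obtain ⟨g, hg, e1⟩ := o.tr x hx a ha
  exact ⟨g • y, o.inv g hg _ hy, fun c => e (by rw [← e1, smul_left_cancel_iff] at c; exact c.symm),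
    g, hg, e1, rfl⟩

theorem uu (all : ∀ b ∈ D, b ≠ a → df K (ob L D a b) = 1) {b1 b2 : X} (h1 : b1 ∈ D) (n1 : b1 ≠ a)
    (h2 : b2 ∈ D) (n2 : b2 ≠ a) (r : ¬ R L a b1 a b2) {b c : X} (hb : b ∈ D) (ne : b ≠ a)
    (cc : Cc L D a b c) : ∃ b' ∈ D, b' ≠ a ∧ Cc L D a b' c ∧ ¬ R L a b' a b := by
  by_contra con
  push Not at con
  obtain ⟨s, hs, ns⟩ := l.nt b hb ne
  obtain ⟨k, hk, e⟩ : ∃ k ∈ K, k • s ≠ s := by simpa [fx] using ns
  obtain ⟨hs, r0⟩ := mob.mp hs
  have ks := o.inv k (h.1 hk) s hs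
  have t : ∀ u, fx K u → R L u (k • s) u s := fun u f =>
    ⟨k⁻¹, L.inv_mem (h.1 hk), f _ (K.inv_mem hk), by simp⟩
  have s0 := cc a ha s hs _ ks r0.symm ((t a fa).trans r0.symm) e.symm
  have al : ∀ u ∈ D, fx K u → R L u s a b := fun u hu f => by
    obtain ⟨b', hb', n', r'⟩ := col h o ha fa l hu hs (by rintro rfl; exact ns f)
    obtain ⟨c', hc', m', cc'⟩ := exC h o ha fa l hb' n' (all _ hb' n')
    have := (cc' u hu s hs _ ks r' ((t u f).trans r') e.symm).symm.trans s0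
    exact r'.trans (con b' hb' n' fun x hx y hy z hz s1 s2 e =>
      (cc' x hx y hy z hz s1 s2 e).trans this)
  obtain ⟨b', hb', n', r'⟩ := col h o ha fa l hs ha (by rintro rfl; exact ns fa)
  obtain ⟨c', hc', m', cc'⟩ := exC h o ha fa l hb' n' (all _ hb' n')
  have fin : ∀ b ∈ D, b ≠ a → R L a b a c' := fun b0 h0 n0 => by
    obtain ⟨y, hy⟩ := card_pos.mp (big h o ha fa l h0 n0 (all _ h0 n0))
    obtain ⟨hy, f⟩ := mFx.mp hy
    obtain ⟨hy, r1⟩ := mob.mp hy
    exact r1.trans (cc' s hs a ha y hy r' (((al y hy f).trans (al a ha fa).symm).swap.trans r')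
      (r1.symm.ne n0.symm))
  exact r ((fin b1 h1 n1).trans (fin b2 h2 n2).symm)

open Classical in
theorem peel {T : Finset X} (hT : T ⊆ D.erase a) (i : Inv (St L a) T) {b : X} (hb : b ∈ T) :
    df K T = df K (ob L D a b) + df K (T \ ob L D a b) ∧ T \ ob L D a b ⊆ D.erase a ∧
      Inv (St L a) (T \ ob L D a b) ∧ 1 ≤ df K (ob L D a b) ∧
      ∀ y ∈ T, ¬ R L a b a y → y ∈ T \ ob L D a b :=
  ⟨df_sdiff (ob_sub i hb), sdiff_subset.trans hT, i.sdiff (ob_orb o.inv a b).inv,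
    l.one b (mem_erase.mp (hT hb)).2 (mem_erase.mp (hT hb)).1,
    fun y hy r => mem_sdiff.mpr ⟨hy, fun c => r (mob.mp c).2⟩⟩

theorem all1 (all : ∀ b ∈ D, b ≠ a → df K (ob L D a b) = 1) {b1 b2 : X} (h1 : b1 ∈ D) (n1 : b1 ≠ a)
    (h2 : b2 ∈ D) (n2 : b2 ≠ a) (r : ¬ R L a b1 a b2) (d1 : 0 < df K D) (d2 : df K D ≤ 2) : False := by
  classical
  obtain ⟨c1, k1, m1, cc1⟩ := exC h o ha fa l h1 n1 (all _ h1 n1)
  obtain ⟨c2, k2, m2, cc2⟩ := exC h o ha fa l k1 m1 (all _ k1 m1)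
  have q : ¬ R L a c1 a c2 := fun c => qq h o ha fa l k1 m1 (all _ k1 m1) cc2 c.symm d1 d2
  obtain ⟨u, hu, nu, cu, ru⟩ := uu h o ha fa l all h1 n1 h2 n2 r h1 n1 cc1
  obtain ⟨v, hv, nv, cv, rv⟩ := uu h o ha fa l all h1 n1 h2 n2 r k1 m1 cc2
  have me : ∀ y ∈ D, y ≠ a → y ∈ D.erase a := fun y hy e => mem_erase.mpr ⟨e, hy⟩
  obtain ⟨e1, s1, i1, p1, t1⟩ := peel h o ha fa l Subset.rfl (o.inv.erase a) (me _ h1 n1)
  have a1 := t1 _ (me _ hu nu) fun c => ru c.symm
  have a2 := t1 _ (me _ k1 m1) fun c => q (uq h o ha fa l h1 n1 (all _ h1 n1) cc1 cc2 c)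
  have a3 := t1 _ (me _ hv nv) fun c => q (uq h o ha fa l h1 n1 (all _ h1 n1) cc1 cv c)
  obtain ⟨e2, s2, i2, p2, t2⟩ := peel h o ha fa l s1 i1 a1
  have a4 := t2 _ a2 fun c => q (uq h o ha fa l hu nu (all _ hu nu) cu cc2 c)
  have a5 := t2 _ a3 fun c => q (uq h o ha fa l hu nu (all _ hu nu) cu cv c)
  obtain ⟨e3, s3, i3, p3, t3⟩ := peel h o ha fa l s2 i2 a4
  have := l.inv _ s3 i3 ⟨_, t3 _ a5 fun c => rv c.symm⟩
  have := df_erase ha fa
  omega

theorem c12 {b1 b2 : X} (h1 : b1 ∈ D) (n1 : b1 ≠ a) (d : df K (ob L D a b1) = 1)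
    (al : ∀ b ∈ D, b ≠ a → R L a b a b1 ∨ R L a b a b2) (r : ¬ R L a b1 a b2) (d2 : df K D = 2) :
    (∀ x ∈ D, ∀ y ∈ D, R L x y a b1 → R L y x a b1) ∧
    (∀ x ∈ D, ∀ y ∈ D, ∀ z ∈ D, R L x y a b1 → R L x z a b1 → ¬ R L y z a b1) ∧
    (∀ x ∈ D, ∀ y ∈ D, ∀ z ∈ D, x ≠ y → x ≠ z → R L y z a b1 → R L x y a b1 ∨ R L x z a b1) := by
  classical
  obtain ⟨c, k1, m1, cc⟩ := exC h o ha fa l h1 n1 d
  have c2 : Cc L D a b1 b2 := fun x hx y hy z hz s1 s2 e => (cc x hx y hy z hz s1 s2 e).trans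
    ((al c k1 m1).resolve_left fun e => qq h o ha fa l h1 n1 d cc e (by omega) d2.le)
  have ab : ∀ x ∈ D, ∀ y ∈ D, x ≠ y → R L x y a b1 ∨ R L x y a b2 := fun x hx y hy e => by
    obtain ⟨b, hb, n, s⟩ := col h o ha fa l hx hy e
    exact (al b hb n).imp s.trans s.trans
  have nab : ∀ x y, R L x y a b1 → ¬ R L x y a b2 := fun x y s t => r (s.symm.trans t)
  have sA : ∀ x ∈ D, ∀ y ∈ D, R L x y a b1 → R L y x a b1 := fun x hx y hy s =>
    (ab y hy x hx (s.ne n1.symm).symm).resolve_right fun t => nab _ _ s (sy h o ha fa l h1 n1 d c2 t)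
  have tri : ∀ x ∈ D, ∀ y ∈ D, ∀ z ∈ D, R L x y a b1 → R L x z a b1 → ¬ R L y z a b1 :=
    fun x hx y hy z hz s t u => nab _ _ u (c2 x hx y hy z hz s t (u.ne n1.symm))
  refine ⟨sA, tri, fun x hx y hy z hz xy xz e => ?_⟩
  by_contra con
  push Not at con
  have bxy := (ab x hx y hy xy).resolve_left con.1
  have bxz := (ab x hx z hz xz).resolve_left con.2
  have mu : ∀ u v, R L u v a b2 → (nb L D a b1 u ∩ nb L D a b1 v).card
      = (nb L D a b1 x ∩ nb L D a b1 y).card := fun u v s => by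
    obtain ⟨g, hg, rfl, rfl⟩ := bxy.trans s.symm
    rw [nb_smul o.inv hg, nb_smul o.inv hg, ← smul_finset_inter, card_smul_finset]
  have dj : Disjoint (nb L D a b1 y) (nb L D a b1 z) := disjoint_left.mpr fun w s t =>
    tri w (mnb.mp s).1 y hy z hz (sA _ hy _ (mnb.mp s).1 (mnb.mp s).2)
      (sA _ hz _ (mnb.mp s).1 (mnb.mp t).2) e
  have i1 := card_le_card (show (nb L D a b1 x ∩ nb L D a b1 y) ∪ (nb L D a b1 x ∩ nb L D a b1 z)
    ⊆ nb L D a b1 x from union_subset inter_subset_left inter_subset_left)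
  rw [card_union_of_disjoint (dj.mono inter_subset_right inter_subset_right), mu _ _ bxz,
    nb_card h o ha fa l b1 hx] at i1
  have i2 := card_le_card (show nb L D a b1 y ∪ nb L D a b1 z ⊆ D.erase x from fun w hw => by
    rcases mem_union.mp hw with s | s
    · exact mem_erase.mpr ⟨by rintro rfl; exact con.1 (sA _ hy _ hx (mnb.mp s).2), (mnb.mp s).1⟩
    · exact mem_erase.mpr ⟨by rintro rfl; exact con.2 (sA _ hz _ hx (mnb.mp s).2), (mnb.mp s).1⟩)
  rw [card_union_of_disjoint dj, nb_card h o ha fa l b1 hy, nb_card h o ha fa l b1 hz,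
    card_erase_of_mem hx] at i2
  have i3 : (Fx K D).card * ((Fx K (ob L D a b1)).card + 1)
      ≤ (D \ Fx K D).card * (nb L D a b1 x ∩ nb L D a b1 y).card := by
    refine card_mul_le_card_mul (fun u s => R L u s a b1) (fun u hu => ?_) fun s hs => ?_
    · obtain ⟨hu, f⟩ := mFx.mp hu
      have e1 : (D \ Fx K D).bipartiteAbove (fun u s => R L u s a b1) u
          = nb L D a b1 u \ Fx K (nb L D a b1 u) := by
        ext w; simp only [mem_bipartiteAbove, mem_sdiff, mFx, mnb]; tauto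
      have e2 := card_sdiff_add_card_eq_card (s := Fx K (nb L D a b1 u)) (t := nb L D a b1 u)
        fun x hx => (mFx.mp hx).1
      rw [nb_card h o ha fa l b1 hu, nb_fx h o ha fa l b1 hu f] at e2
      rw [e1]; unfold df at d; omega
    · obtain ⟨hs, ns⟩ := mem_sdiff.mp hs
      obtain ⟨k, hk, e⟩ : ∃ k ∈ K, k • s ≠ s := by simpa [mFx, hs, fx] using ns
      have ks := o.inv k (h.1 hk) s hs
      have t : ∀ u ∈ (Fx K D).bipartiteBelow (fun u s => R L u s a b1) s,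
          u ∈ D ∧ R L u s a b1 ∧ R L u (k • s) a b1 := fun u hu => by
        obtain ⟨hu, s1⟩ := (mem_bipartiteBelow _).mp hu
        exact ⟨(mFx.mp hu).1, s1, R.trans
          ⟨k⁻¹, L.inv_mem (h.1 hk), (mFx.mp hu).2 _ (K.inv_mem hk), by simp⟩ s1⟩
      rcases ((Fx K D).bipartiteBelow (fun u s => R L u s a b1) s).eq_empty_or_nonempty with e0 | e0
      · simp [e0]
      · obtain ⟨u, hu⟩ := e0
        rw [← mu s (k • s) (c2 u (t u hu).1 s hs _ ks (t u hu).2.1 (t u hu).2.2 e.symm)]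
        exact card_le_card fun w hw => mem_inter.mpr
          ⟨mnb.mpr ⟨(t w hw).1, sA _ (t w hw).1 _ hs (t w hw).2.1⟩,
           mnb.mpr ⟨(t w hw).1, sA _ (t w hw).1 _ ks (t w hw).2.2⟩⟩
  have i4 := card_sdiff_add_card_eq_card (s := Fx K D) (t := D) fun x hx => (mFx.mp hx).1
  unfold df at d d2
  have e1 : (D \ Fx K D).card = (Fx K D).card + 2 := by omega
  have e2 : (nb L D a b1 x ∩ nb L D a b1 y).card ≤ (Fx K (ob L D a b1)).card := by omega
  have e3 : 2 * (Fx K (ob L D a b1)).card + 1 ≤ (Fx K D).card := by omega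
  rw [e1] at i3
  nlinarith [Nat.mul_le_mul_left ((Fx K D).card + 2) e2]

end

end H10.PF
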