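import Cfsg.Agent.H10.PF.G
import Cfsg.Agent.H10.PF.E

/-! Pronormal subgroups and their fixed points: the highly transitive cases. -/
set_option autoImplicit false
set_option linter.unusedSectionVars false
set_option linter.unusedVariables false

namespace H10.PF
open Finset MulAction Pointwise

variable {G : Type} [Group G] {K L : Subgroup G} {X : Type} [MulAction G X] {D : Finset X} {a : X}

theorem Inv.iff (o : Inv L D) {g : G} (hg : g ∈ L) (x : X) : g • x ∈ D ↔ x ∈ D :=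
  ⟨fun e => by simpa using o _ (L.inv_mem hg) _ e, o _ hg _⟩

theorem nsw (h : PN K L) (o : Inv L D) (ha : a ∈ D) (fa : fx K a) {g : G} (hg : g ∈ L)
    (e : ∀ x ∈ D, fx K (g⁻¹ • x) ↔ ¬ fx K x) : False :=
  (e _ (o g hg a ha)).mp (by simpa using fa) (h.ns o hg (fun k hk x hx f => by
    rw [e _ (o k (h.1 hk) x hx), (Nm.of_mem hk).fx']; exact (e x hx).mp f) a ha fa)

theorem four (h : PN K L) (o : Inv L D) (d : df K D = 0) {b c s : X} (hn : 4 ≤ D.card)
    (n4 : ∀ x ∈ D, ∀ y ∈ D, ∀ z ∈ D, ∀ w ∈ D, x ≠ y → x ≠ z → x ≠ w → y ≠ z → y ≠ w → z ≠ w →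
      ∃ g ∈ L, g • x = a ∧ g • y = b ∧ g • z = c ∧ g • w = s) : False := by
  classical
  let P : Subgroup (Equiv.Perm D) :=
    { carrier := {p | ∃ g ∈ L, ∀ x : D, (p x : X) = g • (x : X)}
      one_mem' := ⟨1, L.one_mem, fun x => by simp⟩
      mul_mem' := by
        rintro p q ⟨g, hg, e⟩ ⟨g', hg', e'⟩
        exact ⟨g * g', L.mul_mem hg hg', fun x => by rw [Equiv.Perm.mul_apply, e, e', mul_smul]⟩
      inv_mem' := by
        rintro p ⟨g, hg, e⟩
        exact ⟨g⁻¹, L.inv_mem hg, fun x => by rw [eq_inv_smul_iff, ← e]; simp⟩ }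
  have ex : ∀ g ∈ L, ∃ p ∈ P, ∀ x : D, (p x : X) = g • (x : X) := fun g hg =>
    ⟨Equiv.Perm.subtypePerm (MulAction.toPerm g) (o.iff hg), ⟨g, hg, fun _ => rfl⟩, fun _ => rfl⟩
  have h4 : IsMultiplyPretransitive P D 4 := ⟨fun u v => by
    have k : ∀ u : Fin 4 ↪ D, ∀ i j, i ≠ j → (u i : X) ≠ u j := fun u i j e c =>
      e (u.injective (Subtype.ext c))
    obtain ⟨g, hg, e0, e1, e2, e3⟩ := n4 _ (u 0).2 _ (u 1).2 _ (u 2).2 _ (u 3).2 (k u _ _ (by decide))
      (k u _ _ (by decide)) (k u _ _ (by decide)) (k u _ _ (by decide)) (k u _ _ (by decide))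
      (k u _ _ (by decide))
    obtain ⟨g', hg', f0, f1, f2, f3⟩ := n4 _ (v 0).2 _ (v 1).2 _ (v 2).2 _ (v 3).2
      (k v _ _ (by decide)) (k v _ _ (by decide)) (k v _ _ (by decide)) (k v _ _ (by decide))
      (k v _ _ (by decide)) (k v _ _ (by decide))
    obtain ⟨p, hp, e⟩ := ex _ (L.mul_mem (L.inv_mem hg') hg)
    refine ⟨⟨p, hp⟩, ?_⟩
    ext i
    change ((p (u i) : D) : X) = v i
    rw [e, mul_smul, inv_smul_eq_iff]
    fin_cases i
    · exact e0.trans f0.symm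
    · exact e1.trans f1.symm
    · exact e2.trans f2.symm
    · exact e3.trans f3.symm⟩
  refine ft4 h4 (by simpa using hn) (univ.filter fun x : D => fx K (x : X)) ?_ ?_
  · have : (univ.filter fun x : D => fx K (x : X)).card = (Fx K D).card := by
      rw [← card_map (Function.Embedding.subtype _)]
      congr 1; ext x; simp [mFx, and_comm]
    unfold df at d
    rw [this, Fintype.card_coe]; omega
  · rintro p ⟨g, hg, e⟩ H w hw
    have e' : ∀ x : D, (p⁻¹ x : X) = g⁻¹ • (x : X) := fun x => by rw [eq_inv_smul_iff, ← e]; simp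
    simp only [mem_filter, mem_univ, true_and, e, e'] at *
    refine h.ns o hg (fun k hk x hx f => ?_) _ w.2 hw
    obtain ⟨q, hq, e1⟩ := ex k (h.1 hk)
    have := H q hq (fun w hw => Subtype.ext (by rw [e1, hw k hk])) ⟨x, hx⟩ f
    rwa [e1] at this

def Qd (L : Subgroup G) (D : Finset X) (x y z w : X) : Prop :=
  w ∈ D ∧ w ≠ x ∧ w ≠ y ∧ w ≠ z ∧ ∀ g ∈ L, g • x = x → g • y = y → g • z = z → g • w = w

theorem Qd.smul (o : Inv L D) {x y z w : X} (q : Qd L D x y z w) {g : G} (hg : g ∈ L) :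
    Qd L D (g • x) (g • y) (g • z) (g • w) := by
  obtain ⟨q0, q1, q2, q3, q4⟩ := q
  refine ⟨o g hg w q0, by simpa, by simpa, by simpa, fun u hu e1 e2 e3 => ?_⟩
  have := q4 (g⁻¹ * u * g) (L.mul_mem (L.mul_mem (L.inv_mem hg) hu) hg) (by simp [mul_smul, e1])
    (by simp [mul_smul, e2]) (by simp [mul_smul, e3])
  rwa [mul_smul, mul_smul, inv_smul_eq_iff] at this

theorem ev4 {p q r s : Prop} (h1 : p → ¬ q → ¬ (r ↔ s)) (h2 : q → ¬ p → ¬ (r ↔ s))
    (h3 : r → ¬ s → ¬ (p ↔ q)) (h4 : s → ¬ r → ¬ (p ↔ q)) : (p ↔ q) ↔ (r ↔ s) := by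
  by_cases p <;> by_cases q <;> by_cases r <;> by_cases s <;> simp_all

theorem ev8 {p q r s p' q' r' s' : Prop} (h1 : (p ↔ q) ↔ (r ↔ s)) (h2 : (p' ↔ q') ↔ (r' ↔ s'))
    (h3 : ¬ (p ↔ p')) (h4 : q ↔ q') : ¬ ((r ↔ r') ↔ (s ↔ s')) := by
  by_cases p <;> by_cases q <;> by_cases r <;> by_cases s <;> by_cases r' <;> simp_all

theorem sqs [Finite G] (h : PN K L) (o : Orb L D) (d : df K D = 0) (ha : a ∈ D) (fa : fx K a)
    (ex : ∀ x ∈ D, ∀ y ∈ D, ∀ z ∈ D, x ≠ y → x ≠ z → y ≠ z → ∃! w, Qd L D x y z w) : False := by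
  classical
  have sw : ∀ x ∈ D, ∀ y ∈ D, ∀ z ∈ D, x ≠ y → z ≠ x → z ≠ y → ∀ w, Qd L D x y z w →
      Qd L D x y w z := fun x hx y hy z hz xy zx zy w q => by
    obtain ⟨u, q', -⟩ := ex x hx y hy w q.1 xy q.2.1.symm q.2.2.1.symm
    by_cases e : u = z
    · exact e ▸ q'
    · exact absurd ((ex x hx y hy z hz xy zx.symm zy.symm).unique ⟨q'.1, q'.2.1, q'.2.2.1, e,
        fun g hg e1 e2 e3 => q'.2.2.2.2 g hg e1 e2 (q.2.2.2.2 g hg e1 e2 e3)⟩ q) q'.2.2.2.1
  have sg : ∀ x ∈ D, ∀ y ∈ D, x ≠ y → ∃ σ : X → X, ∀ z ∈ D, z ≠ x → z ≠ y →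
      Qd L D x y z (σ z) ∧ σ (σ z) = z := fun x hx y hy xy => by
    have : ∀ z, ∃ w, z ∈ D → z ≠ x → z ≠ y → Qd L D x y z w := fun z => by
      by_cases c : z ∈ D ∧ z ≠ x ∧ z ≠ y
      · obtain ⟨w, q, -⟩ := ex x hx y hy z c.1 xy c.2.1.symm c.2.2.symm
        exact ⟨w, fun _ _ _ => q⟩
      · exact ⟨z, fun a b e => absurd ⟨a, b, e⟩ c⟩
    choose σ hσ using this
    refine ⟨σ, fun z hz zx zy => ⟨hσ z hz zx zy, ?_⟩⟩
    have q := hσ z hz zx zy
    exact (ex x hx y hy _ q.1 xy q.2.1.symm q.2.2.1.symm).unique (hσ _ q.1 q.2.1 q.2.2.1)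
      (sw x hx y hy z hz xy zx zy _ q)
  have r13 : ∀ x y z w, Qd L D x y z w → Qd L D z y x w := fun x y z w q =>
    ⟨q.1, q.2.2.2.1, q.2.2.1, q.2.1, fun g hg e1 e2 e3 => q.2.2.2.2 g hg e3 e2 e1⟩
  have r23 : ∀ x y z w, Qd L D x y z w → Qd L D x z y w := fun x y z w q =>
    ⟨q.1, q.2.1, q.2.2.2.1, q.2.2.1, fun g hg e1 e2 e3 => q.2.2.2.2 g hg e1 e3 e2⟩
  have cf : ∀ g ∈ L, (D.filter fun x => fx K (g⁻¹ • x)).card = (Fx K D).card := fun g hg => by
    rw [← card_smul_finset g (Fx K D)]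
    congr 1; ext x; rw [← inv_smul_mem_iff, mFx, mem_filter, o.inv.iff (L.inv_mem hg)]
  have half : ∀ g ∈ L, ∀ x ∈ D, ∀ y ∈ D, ∀ z ∈ D, z ≠ x → z ≠ y → ∀ w, Qd L D x y z w →
      fx K (g⁻¹ • x) → ¬ fx K (g⁻¹ • y) → ¬ (fx K (g⁻¹ • z) ↔ fx K (g⁻¹ • w)) := by
    intro g hg x hx y hy z hz zx zy w q px py
    have xy : x ≠ y := by rintro rfl; exact py px
    have cl : ∀ z ∈ D, z ≠ x → z ≠ y → ∀ w, Qd L D x y z w → fx K (g⁻¹ • z) → ¬ fx K (g⁻¹ • w) :=
      fun z hz zx zy w q pz pw => py fun k hk =>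
        ((sw x hx z hz y hy zx.symm xy.symm zy.symm w (r23 _ _ _ _ q)).smul o.inv
          (L.inv_mem hg)).2.2.2.2 k (h.1 hk) (px k hk) (pz k hk) (pw k hk)
    obtain ⟨σ, hσ⟩ := sg x hx y hy xy
    have su := surjOn_of_injOn_of_card_le (s := (D.filter fun x => fx K (g⁻¹ • x)).erase x)
      (t := (D.filter fun x => ¬ fx K (g⁻¹ • x)).erase y) σ (fun u hu => by
        simp only [coe_erase, coe_filter, Set.mem_sdiff, Set.mem_ofPred_eq, Set.mem_singleton_iff] at *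
        have uy : u ≠ y := by rintro rfl; exact py hu.1.2
        have := (hσ u hu.1.1 hu.2 uy).1
        exact ⟨⟨this.1, cl u hu.1.1 hu.2 uy _ this hu.1.2⟩, this.2.2.1⟩) (fun u hu v hv e => by
        simp only [coe_erase, coe_filter, Set.mem_sdiff, Set.mem_ofPred_eq, Set.mem_singleton_iff] at *
        rw [← (hσ u hu.1.1 hu.2 (by rintro rfl; exact py hu.1.2)).2, e,
          (hσ v hv.1.1 hv.2 (by rintro rfl; exact py hv.1.2)).2]) (by
        rw [card_erase_of_mem (by simp [*]), card_erase_of_mem (by simp [*])]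
        have := card_filter_add_card_filter_not (s := D) (fun x => fx K (g⁻¹ • x))
        have := cf g hg
        unfold df at d; omega)
    intro e
    by_cases pz : fx K (g⁻¹ • z)
    · exact cl z hz zx zy w q pz (e.mp pz)
    · obtain ⟨u, hu, rfl⟩ := su (show z ∈ _ from by simp [hz, pz, zy])
      simp only [coe_erase, coe_filter, Set.mem_sdiff, Set.mem_ofPred_eq, Set.mem_singleton_iff] at hu
      have uy : u ≠ y := by rintro rfl; exact py hu.1.2
      have := (ex x hx y hy _ hz xy zx.symm zy.symm).unique q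
        (sw x hx y hy u hu.1.1 xy hu.2 uy _ (hσ u hu.1.1 hu.2 uy).1)
      exact pz (e.mpr (this ▸ hu.1.2))
  have ev : ∀ g ∈ L, ∀ x ∈ D, ∀ y ∈ D, ∀ z ∈ D, x ≠ y → z ≠ x → z ≠ y → ∀ w, Qd L D x y z w →
      ((fx K (g⁻¹ • x) ↔ fx K (g⁻¹ • y)) ↔ (fx K (g⁻¹ • z) ↔ fx K (g⁻¹ • w))) := by
    intro g hg x hx y hy z hz xy zx zy w q
    have q1 := half g hg x hx y hy z hz zx zy w q
    have q2 := half g hg y hy x hx z hz zy zx w (r13 _ _ _ _ (r23 _ _ _ _ (r13 _ _ _ _ q)))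
    have t' : Qd L D z w x y := r23 _ _ _ _ (sw z hz x hx y hy zx zy.symm xy.symm w
      (r23 _ _ _ _ (r13 _ _ _ _ q)))
    have q3 := half g hg z hz w q.1 x hx zx.symm q.2.1.symm y t'
    have q4 := half g hg w q.1 z hz x hx q.2.1.symm zx.symm y (r13 _ _ _ _ (r23 _ _ _ _ (r13 _ _ _ _ t')))
    exact ev4 q1 q2 q3 q4
  have lo : ∀ g ∈ L, (Fx K D).card ≤ 2 * ((Fx K D).filter fun x => fx K (g⁻¹ • x)).card := by
    intro g hg
    by_cases c1 : ∀ x ∈ D, fx K (g⁻¹ • x) ↔ fx K x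
    · rw [filter_true_of_mem fun x hx => (c1 x (mFx.mp hx).1).mpr (mFx.mp hx).2]; omega
    by_cases c2 : ∀ x ∈ D, fx K (g⁻¹ • x) ↔ ¬ fx K x
    · exact (nsw h o.inv ha fa hg c2).elim
    obtain ⟨x, hx, px⟩ : ∃ x ∈ D, ¬ (fx K (g⁻¹ • x) ↔ fx K x) := by simpa using c1
    obtain ⟨y, hy, py⟩ : ∃ y ∈ D, (fx K (g⁻¹ • y) ↔ fx K y) := by
      by_contra c; exact c2 fun x hx => by
        have : ¬ (fx K (g⁻¹ • x) ↔ fx K x) := fun e => c ⟨x, hx, e⟩
        tauto
    have xy : x ≠ y := by rintro rfl; exact px py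
    obtain ⟨σ, hσ⟩ := sg x hx y hy xy
    have k : ∀ z ∈ D, z ≠ x → z ≠ y → ¬ ((fx K (g⁻¹ • z) ↔ fx K z) ↔ (fx K (g⁻¹ • σ z) ↔ fx K (σ z))) :=
      fun z hz zx zy => by
        have e1 := ev g hg x hx y hy z hz xy zx zy _ (hσ z hz zx zy).1
        have e2 := ev 1 L.one_mem x hx y hy z hz xy zx zy _ (hσ z hz zx zy).1
        simp only [inv_one, one_smul] at e2
        exact ev8 e1 e2 px py
    have e : ((D.filter fun x => ¬ (fx K (g⁻¹ • x) ↔ fx K x)).erase x).card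
        = ((D.filter fun x => (fx K (g⁻¹ • x) ↔ fx K x)).erase y).card := by
      refine card_nbij' σ σ (fun u hu => ?_) (fun u hu => ?_) (fun u hu => ?_) (fun u hu => ?_) <;>
        simp only [coe_erase, coe_filter, Set.mem_sdiff, Set.mem_ofPred_eq, Set.mem_singleton_iff] at hu ⊢
      · have uy : u ≠ y := by rintro rfl; exact hu.1.2 py
        have := k u hu.1.1 hu.2 uy
        exact ⟨⟨(hσ u hu.1.1 hu.2 uy).1.1, by_contra fun c => this (iff_of_false hu.1.2 c)⟩,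
          (hσ u hu.1.1 hu.2 uy).1.2.2.1⟩
      · have ux : u ≠ x := by rintro rfl; exact px hu.1.2
        have := k u hu.1.1 ux hu.2
        exact ⟨⟨(hσ u hu.1.1 ux hu.2).1.1, fun c => this (iff_of_true hu.1.2 c)⟩,
          (hσ u hu.1.1 ux hu.2).1.2.1⟩
      · exact (hσ u hu.1.1 hu.2 (by rintro rfl; exact hu.1.2 py)).2
      · exact (hσ u hu.1.1 (by rintro rfl; exact px hu.1.2) hu.2).2
    rw [card_erase_of_mem (by simp [*]), card_erase_of_mem (by simp [*])] at e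
    have p1 : 0 < (D.filter fun x => ¬ (fx K (g⁻¹ • x) ↔ fx K x)).card := card_pos.mpr ⟨x, by simp [*]⟩
    have p2 : 0 < (D.filter fun x => (fx K (g⁻¹ • x) ↔ fx K x)).card := card_pos.mpr ⟨y, by simp [*]⟩
    have e1 := card_filter_add_card_filter_not (s := D) (fun x => fx K (g⁻¹ • x) ↔ fx K x)
    have e2 := cf g hg
    have e3 := card_filter_add_card_filter_not (s := Fx K D) (fun x => fx K (g⁻¹ • x))
    have e4 := card_filter_add_card_filter_not (s := D.filter fun x => fx K (g⁻¹ • x)) (fx K)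
    have e5 : (D.filter fun x => fx K (g⁻¹ • x)).filter (fx K)
        = (Fx K D).filter fun x => fx K (g⁻¹ • x) := by ext; simp only [mem_filter, mFx]; tauto
    have e6 : (D.filter fun x => ¬ (fx K (g⁻¹ • x) ↔ fx K x))
        = ((Fx K D).filter fun x => ¬ fx K (g⁻¹ • x)) ∪
          (D.filter fun x => fx K (g⁻¹ • x)).filter (fun x => ¬ fx K x) := by
      ext; simp only [mem_filter, mFx, mem_union]; tauto
    have e7 := card_union_of_disjoint (s := (Fx K D).filter fun x => ¬ fx K (g⁻¹ • x))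
      (t := (D.filter fun x => fx K (g⁻¹ • x)).filter (fun x => ¬ fx K x))
      (disjoint_left.mpr fun u s t => by simp only [mem_filter, mFx] at s t; tauto)
    rw [← e6] at e7
    rw [e5] at e4
    unfold df at d; omega
  have := Fintype.ofFinite G
  let S : Finset G := univ.filter (· ∈ L)
  have mS : ∀ g, g ∈ S ↔ g ∈ L := fun g => by simp [S]
  have c0 : ∀ x ∈ D, (S.filter fun g => fx K (g⁻¹ • x)).card = (S.filter fun g => fx K (g⁻¹ • a)).card :=
    fun x hx => by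
      obtain ⟨u, hu, rfl⟩ := o.tr a ha x hx
      refine card_nbij' (u⁻¹ * ·) (u * ·) (fun g hg => ?_) (fun g hg => ?_) (fun g _ => by simp)
        (fun g _ => by simp) <;>
        simp only [coe_filter, Set.mem_ofPred_eq, mS] at hg ⊢
      · exact ⟨L.mul_mem (L.inv_mem hu) hg.1, by simpa [mul_smul] using hg.2⟩
      · exact ⟨L.mul_mem hu hg.1, by simpa [mul_smul] using hg.2⟩
  have sc : ∀ T : Finset X, ∑ x ∈ T, (S.filter fun g => fx K (g⁻¹ • x)).card
      = ∑ g ∈ S, (T.filter fun x => fx K (g⁻¹ • x)).card := fun T => by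
    simp only [card_filter]; exact sum_comm
  have s1 := sc D
  rw [sum_congr rfl c0, sum_congr rfl fun g hg => cf g ((mS g).mp hg)] at s1
  have s2 := sc (Fx K D)
  rw [sum_congr rfl fun x hx => c0 x (mFx.mp hx).1] at s2
  have fp : 0 < (Fx K D).card := card_pos.mpr ⟨a, mFx.mpr ⟨ha, fa⟩⟩
  have s3 := sum_lt_sum (s := S) (fun g hg => lo g ((mS g).mp hg)) ⟨1, (mS 1).mpr L.one_mem, by
    rw [filter_true_of_mem fun x hx => by simpa using (mFx.mp hx).2]; omega⟩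
  rw [← mul_sum, ← s2] at s3
  simp only [sum_const, smul_eq_mul] at s1 s3
  have : D.card = 2 * (Fx K D).card := by unfold df at d; omega
  rw [this] at s1
  linarith

end H10.PF
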