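import Cfsg.Agent.H10.PF.H

/-! Pronormal subgroups and their fixed points: the induction. -/
set_option autoImplicit false
set_option linter.unusedSectionVars false
set_option linter.unusedVariables false

namespace H10.PF
open Finset MulAction Pointwise

variable {G : Type} [Group G] {K L : Subgroup G} {X : Type} [MulAction G X] {D : Finset X} {a : X}

open Classical in
theorem orb2 (o : Inv L D) (t : T2 L D) (ha : a ∈ D) : Orb (St L a) (D.erase a) :=
  ⟨o.erase a, fun x hx y hy => by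
    obtain ⟨g, hg, e1, e2⟩ := t a ha x (mem_erase.mp hx).2 a ha y (mem_erase.mp hy).2
      (mem_erase.mp hx).1.symm (mem_erase.mp hy).1.symm
    exact ⟨g, ⟨hg, e1⟩, e2⟩⟩

open Classical in
theorem tr2 (o : Orb L D) (ha : a ∈ D) {b : X} (e : ∀ y ∈ D, y ≠ a → R L a b a y) : T2 L D := by
  have k : ∀ x ∈ D, ∀ y ∈ D, x ≠ y → R L x y a b := fun x hx y hy xy => by
    obtain ⟨g, hg, e1⟩ := o.tr x hx a ha
    exact R.trans ⟨g, hg, e1, rfl⟩ (e _ (o.inv g hg y hy) fun c =>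
      xy (by rw [← e1, smul_left_cancel_iff] at c; exact c.symm)).symm
  exact fun x hx y hy x' hx' y' hy' e1 e2 => (k x hx y hy e1).trans (k x' hx' y' hy' e2).symm

open Classical in
theorem lift3 (o : Orb L D) (ha : a ∈ D) {x : X} (hx : x ∈ D) : ∃ g ∈ L, g • x = a ∧
    ∀ y ∈ D, x ≠ y → g • y ∈ D.erase a := by
  obtain ⟨g, hg, e1⟩ := o.tr x hx a ha
  exact ⟨g, hg, e1, fun y hy xy => mem_erase.mpr ⟨fun c =>
    xy (by rw [← e1, smul_left_cancel_iff] at c; exact c.symm), o.inv g hg y hy⟩⟩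

open Classical in
theorem mid {n : ℕ} (ih : ∀ m < n, Claim K m) {M : Subgroup G} {E : Finset X} (h : PN K M)
    (oE : Orb M E) (t : T2 M E) {b c b1 b2 : X} (hb : b ∈ E) (fb : fx K b) (hc : c ∈ E.erase b)
    (fc : fx K c) (l : Loc K (St M b) (E.erase b) c) (h1 : b1 ∈ E.erase b) (n1 : b1 ≠ c)
    (h2 : b2 ∈ E.erase b) (n2 : b2 ≠ c) (d1 : df K (ob (St M b) (E.erase b) c b1) = 1)
    (d2 : df K (ob (St M b) (E.erase b) c b2) = 2)
    (al : ∀ y ∈ E.erase b, y ≠ c → R (St M b) c y c b1 ∨ R (St M b) c y c b2)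
    (r : ¬ R (St M b) c b1 c b2) (d : df K (E.erase b) = 2) : False := by
  obtain ⟨s1, s2, s3⟩ := c12 (h.st fb) (orb2 oE.inv t hb) hc fc l h1 n1 d1 al r d
  obtain ⟨cb, hc'⟩ := mem_erase.mp hc
  obtain ⟨u, hu, u1, u2⟩ := t b hb c hc' c hc' b hb cb.symm cb
  have ub : R (St M b) c (u • b1) c b1 := by
    refine (al _ (mem_erase.mpr ⟨fun e => n1 (smul_left_cancel u (e.trans u2.symm)),
      oE.inv u hu _ (mem_erase.mp h1).2⟩) fun e => (mem_erase.mp h1).1
        (smul_left_cancel u (e.trans u1.symm))).resolve_right fun e => ?_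
    have cj : ∀ v ∈ M, v • b = c → v • c = b → ∀ y z, y ∈ E.erase b → y ≠ c →
        R (St M b) c z c (v⁻¹ • y) → R (St M b) c (v • z) c y := fun v hv v1 v2 y z _ _ ⟨g, hg, e1, e2⟩ =>
      ⟨v * g * v⁻¹, mSt.mpr ⟨M.mul_mem (M.mul_mem hv hg.1) (M.inv_mem hv), by
        rw [← v2, mul_smul, mul_smul, inv_smul_smul, e1]⟩, by
        rw [← v1, mul_smul, mul_smul, inv_smul_smul, (mSt.mp hg).2], by
        rw [mul_smul, mul_smul, inv_smul_smul, e2, smul_inv_smul]⟩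
    have : ob (St M b) (E.erase b) c b2 = u • ob (St M b) (E.erase b) c b1 := by
      ext y
      rw [← inv_smul_mem_iff, mob, mob]
      have i1 : u⁻¹ • c = b := by rw [inv_smul_eq_iff, u1]
      have i2 : u⁻¹ • b = c := by rw [inv_smul_eq_iff, u2]
      constructor
      · rintro ⟨hy, s⟩
        have yc : y ≠ c := (s.symm.ne n2.symm).symm
        have m : u⁻¹ • y ∈ E.erase b := mem_erase.mpr ⟨fun k => yc (smul_left_cancel _ (k.trans i1.symm)),
          oE.inv _ (M.inv_mem hu) _ (mem_erase.mp hy).2⟩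
        refine ⟨m, ?_⟩
        simpa using cj u⁻¹ (M.inv_mem hu) i2 i1 (u⁻¹ • y) (u • b1) m
          (fun k => (mem_erase.mp hy).1 (smul_left_cancel _ (k.trans i2.symm))) (by simpa using e.trans s)
      · rintro ⟨hy, s⟩
        have m : y ∈ E.erase b := mem_erase.mpr ⟨by
          rintro rfl; exact (s.symm.ne n1.symm) i2.symm,
          (oE.inv.iff (M.inv_mem hu) y).mp (mem_erase.mp hy).2⟩
        exact ⟨m, e.symm.trans (cj u hu u1 u2 y b1 m (by
          rintro rfl; exact (mem_erase.mp hy).1 i1) s)⟩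
    have := congrArg card this
    rw [card_smul_finset] at this
    unfold df at d1 d2; omega
  -- the ternary relation
  let T : X → X → X → Prop := fun x y z => ∃ g ∈ M, g • x = b ∧ g • y = c ∧ g • z = b1
  have tA : ∀ y z, T b y z ↔ R (St M b) y z c b1 := fun y z =>
    ⟨fun ⟨g, hg, e1, e2, e3⟩ => ⟨g, ⟨hg, e1⟩, e2, e3⟩, fun ⟨g, hg, e2, e3⟩ => ⟨g, hg.1, hg.2, e2, e3⟩⟩
  have tG : ∀ g ∈ M, ∀ x y z, T (g • x) (g • y) (g • z) ↔ T x y z := fun g hg x y z =>
    ⟨fun ⟨w, hw, e1, e2, e3⟩ => ⟨w * g, M.mul_mem hw hg, by rwa [mul_smul], by rwa [mul_smul],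
      by rwa [mul_smul]⟩, fun ⟨w, hw, e1, e2, e3⟩ => ⟨w * g⁻¹, M.mul_mem hw (M.inv_mem hg),
      by simpa [mul_smul], by simpa [mul_smul], by simpa [mul_smul]⟩⟩
  have t12 : ∀ x y z, T x y z → T y x z := by
    rintro x y z ⟨g, hg, e1, e2, e3⟩
    obtain ⟨w, hw, f1, f2⟩ := ub
    exact ⟨w * u * g, M.mul_mem (M.mul_mem hw.1 hu) hg, by rw [mul_smul, mul_smul, e2, u2]; exact hw.2,
      by rw [mul_smul, mul_smul, e1, u1, f1], by rw [mul_smul, mul_smul, e3, f2]⟩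
  have t23 : ∀ x y z, T x y z → T x z y := by
    rintro x y z ⟨g, hg, e1, e2, e3⟩
    rw [← tG g hg, e1, e2, e3, tA]
    exact s1 _ hc _ h1 (R.refl ..)
  have xr : ∀ x ∈ E, ∀ y ∈ E, ∀ z ∈ E, ∀ w ∈ E, x ≠ y → x ≠ z → x ≠ w → w ≠ y → w ≠ z → T x y z →
      ¬ (T x y w ↔ T x z w) := fun x hx y hy z hz w hw xy xz xw wy wz k => by
    obtain ⟨g, hg, e, m⟩ := lift3 oE hb hx
    rw [← tG g hg, e, tA] at k
    rw [← tG g hg x y w, ← tG g hg x z w, e, tA, tA]
    intro i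
    have q : R (St M b) (g • y) (g • w) c b1 := by
      rcases s3 _ (m w hw xw) _ (m y hy xy) _ (m z hz xz) (by simpa) (by simpa) k with j | j
      · exact s1 _ (m w hw xw) _ (m y hy xy) j
      · exact i.mpr (s1 _ (m w hw xw) _ (m z hz xz) j)
    exact s2 _ (m y hy xy) _ (m z hz xz) _ (m w hw xw) k q (i.mp q)
  obtain ⟨b1b, h1'⟩ := mem_erase.mp h1
  obtain ⟨b2b, h2'⟩ := mem_erase.mp h2
  have n12 : b2 ≠ b1 := by rintro rfl; exact r (R.refl ..)
  have t0 : T b c b1 := (tA ..).mpr (R.refl ..)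
  have x1 := xr b hb c hc' b1 h1' b2 h2' cb.symm b1b.symm b2b.symm n2 n12 t0
  have x2 := xr c hc' b hb b1 h1' b2 h2' cb n1.symm n2.symm b2b n12 (t12 _ _ _ t0)
  have x3 := xr b1 h1' b hb c hc' b2 h2' b1b n1 n12.symm b2b n2 (t12 _ _ _ (t23 _ _ _ t0))
  have y1 : T c b b2 ↔ T b c b2 := ⟨t12 _ _ _, t12 _ _ _⟩
  have y2 : T b1 b b2 ↔ T b b1 b2 := ⟨t12 _ _ _, t12 _ _ _⟩
  have y3 : T b1 c b2 ↔ T c b1 b2 := ⟨t12 _ _ _, t12 _ _ _⟩
  rw [y1] at x2
  rw [y2, y3] at x3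
  by_cases T b c b2 <;> by_cases T b b1 b2 <;> simp_all

theorem d0 [Finite G] {n : ℕ} (ih : ∀ m < n, Claim K m) (h : PN K L) (o : Orb L D) (nt : NT K D)
    (hn : D.card = n) (d : df K D ≤ 0) : False := by
  classical
  obtain ⟨s, hs, ns⟩ := nt
  obtain ⟨a, ha⟩ : (Fx K D).Nonempty := card_pos.mp (by
    have := card_pos.mpr ⟨s, hs⟩
    unfold df at d; omega)
  obtain ⟨ha, fa⟩ := mFx.mp ha
  have l := loc ih h o hn ha fa (by
    by_contra c
    have := blk ih h o ⟨s, hs, ns⟩ hn ha fa (by omega)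
    omega)
  have sa : ∀ y, fx K y → s ≠ y := fun y f e => ns (e ▸ f)
  have e0 := df_erase ha fa
  have s1 := mem_erase.mpr ⟨sa a fa, hs⟩
  obtain ⟨e1, u1, i1, p1, t1⟩ := peel h o ha fa l Subset.rfl (o.inv.erase a) s1
  have z : D.erase a \ ob L D a s = ∅ := by
    by_contra c
    have := l.inv _ u1 i1 (nonempty_iff_ne_empty.mpr c)
    omega
  have eo : ob L D a s = D.erase a :=
    (ob_sub (o.inv.erase a) s1).antisymm (sdiff_eq_empty_iff_subset.mp z)
  have d1 : df K (ob L D a s) = 1 := by rw [eo] at p1 ⊢; omega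
  have t1 := l.two s hs (sa a fa) d1
  have o1 := ob_orb o.inv a s
  obtain ⟨b, hb⟩ := card_pos.mp (big h o ha fa l hs (sa a fa) d1)
  rw [eo] at t1 o1 d1 hb
  obtain ⟨hb, fb⟩ := mFx.mp hb
  have h1 := h.st fa
  have h2 := h1.st fb
  have o2 := orb2 o1.inv t1 hb
  have d2 := df_erase hb fb
  have s2 := mem_erase.mpr ⟨sa b fb, s1⟩
  have c1 := card_erase_of_mem ha
  have c2 := card_erase_of_mem hb
  have dp := card_pos.mpr ⟨a, ha⟩
  have ih2 : ∀ m < ((D.erase a).erase b).card, Claim K m := fun m hm => ih m (by omega)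
  rcases (Fx K ((D.erase a).erase b)).eq_empty_or_nonempty with z | ⟨c, hc⟩
  · obtain ⟨k, hk, e⟩ : ∃ k ∈ K, k • s ≠ s := by simpa [fx] using ns
    have ks := o2.inv k (h2.1 hk) s s2
    have e2 : ({s, k • s} : Finset X) = (D.erase a).erase b := eq_of_subset_of_card_le
      (by simp only [insert_subset_iff, singleton_subset_iff]; exact ⟨s2, ks⟩) (by
        rw [card_pair e.symm]; unfold df at d1 d2; rw [z] at d2; simp at d2; omega)
    have tt := tr2 o ha (b := s) fun y hy ya =>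
      (mob.mp (eo ▸ mem_erase.mpr ⟨ya, hy⟩ : y ∈ ob L D a s)).2
    obtain ⟨g, hg, f1, f2⟩ := tt a ha b (mem_erase.mp hb).2 s hs _ (o.inv k (h.1 hk) s hs)
      (mem_erase.mp hb).1.symm e.symm
    have fi : ∀ x ∈ D, fx K x ↔ x = a ∨ x = b := fun x hx =>
      ⟨fun f => by
        by_contra c
        have : x ∈ Fx K ((D.erase a).erase b) := mFx.mpr ⟨by simp; tauto, f⟩
        simp [z] at this, by rintro (rfl | rfl) <;> assumption⟩
    refine nsw h o.inv ha fa hg fun x hx => ?_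
    have := Finset.ext_iff.mp e2 x
    rw [fi x hx, fi _ (o.inv _ (L.inv_mem hg) _ hx), inv_smul_eq_iff, inv_smul_eq_iff, f1, f2]
    simp only [mem_insert, mem_singleton, mem_erase, hx] at this
    tauto
  obtain ⟨hc, fc⟩ := mFx.mp hc
  have n3 : ∀ x ∈ D, ∀ y ∈ D, ∀ z ∈ D, x ≠ y → x ≠ z → y ≠ z →
      ∃ g ∈ L, g • x = a ∧ g • y = b ∧ g • z = c := fun x hx y hy z hz xy xz yz => by
    obtain ⟨g, hg, e, m⟩ := lift3 o ha hx
    obtain ⟨w, hw, f1, f2⟩ := t1 _ (m y hy xy) _ (m z hz xz) b hb c (mem_erase.mp hc).2 (by simpa)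
      (mem_erase.mp hc).1.symm
    exact ⟨w * g, L.mul_mem hw.1 hg, by rw [mul_smul, e]; exact hw.2, by rwa [mul_smul],
      by rwa [mul_smul]⟩
  by_cases bb : 2 ≤ (bl K (St (St L a) b) ((D.erase a).erase b) c).card
  · have bk := blk ih2 h2 o2 ⟨s, s2, ns⟩ rfl hc fc bb
    have cm : c ∈ bl K (St (St L a) b) ((D.erase a).erase b) c := mbl.mpr ⟨hc, fun _ _ k => k⟩
    obtain ⟨w, hw⟩ : ∃ w, (bl K (St (St L a) b) ((D.erase a).erase b) c).erase c = {w} :=
      card_eq_one.mp (by rw [card_erase_of_mem cm]; omega)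
    have hw' : ∀ y, y ≠ c ∧ y ∈ bl K (St (St L a) b) ((D.erase a).erase b) c ↔ y = w := fun y => by
      rw [← mem_erase, hw, mem_singleton]
    obtain ⟨wc, wb⟩ := (hw' w).mpr rfl
    obtain ⟨w1, w2⟩ := mbl.mp wb
    have q0 : Qd L D a b c w := ⟨by simp at w1; tauto, by simp at w1; tauto, by simp at w1; tauto, wc,
      fun g hg e1 e2 e3 => (hw' _).mp ⟨fun k => wc (smul_left_cancel g (k.trans e3.symm)),
        mbl.mpr ⟨o2.inv g ⟨⟨hg, e1⟩, e2⟩ w w1, fun u hu k => by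
          simpa [mul_smul] using w2 (u * g) (Subgroup.mul_mem _ hu ⟨⟨hg, e1⟩, e2⟩)
            (by simpa [mul_smul, e3] using k)⟩⟩⟩
    have q1 : ∀ y, Qd L D a b c y → y = w := fun y q => (hw' y).mp ⟨q.2.2.2.1,
      mbl.mpr ⟨by simp [q.1, q.2.1, q.2.2.1], fun g hg k => by
        obtain ⟨v, hv, n1, e⟩ := h2.wit hg fc k
        have m := Subgroup.mul_mem _ (Subgroup.inv_mem _ hv) hg
        have := q.2.2.2.2 _ m.1.1 m.1.2 m.2 (by rw [mul_smul, ← e, inv_smul_smul])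
        rw [mul_smul, inv_smul_eq_iff] at this
        rw [this, n1.fx']
        exact fun k hk => q.2.2.2.2 k (h.1 hk) (fa k hk) (fb k hk) (fc k hk)⟩⟩
    refine sqs h o (by omega) ha fa fun x hx y hy z hz xy xz yz => ?_
    obtain ⟨g, hg, rfl, rfl, rfl⟩ := n3 x hx y hy z hz xy xz yz
    exact ⟨g⁻¹ • w, by simpa using q0.smul o.inv (L.inv_mem hg), fun u q => by
      rw [← q1 _ (q.smul o.inv hg), inv_smul_smul]⟩
  have l2 := loc ih2 h2 o2 rfl hc fc (by omega)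
  have d3 := df_erase hc fc
  have s3 := mem_erase.mpr ⟨sa c fc, s2⟩
  obtain ⟨e1, u1, i1, p1, -⟩ := peel h2 o2 hc fc l2 Subset.rfl (o2.inv.erase c) s3
  rcases ((((D.erase a).erase b).erase c) \ ob (St (St L a) b) _ c s).eq_empty_or_nonempty
    with z | ⟨b2, hb2⟩
  · have c3 := card_erase_of_mem hc
    have := card_pos.mpr ⟨s, s3⟩
    refine four (a := a) (b := b) (c := c) (s := s) h o.inv (by omega) (by omega)
      fun x hx y hy z' hz w hw xy xz xw yz yw zw => ?_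
    obtain ⟨g, hg, f1, f2, f3⟩ := n3 x hx y hy z' hz xy xz yz
    have : g • w ∈ ((D.erase a).erase b).erase c := by
      simp only [mem_erase, ← f1, ← f2, ← f3, ne_eq, smul_left_cancel_iff]
      exact ⟨zw.symm, yw.symm, xw.symm, o.inv g hg w hw⟩
    obtain ⟨u, hu, k1, k2⟩ := (mob.mp (sdiff_eq_empty_iff_subset.mp z this)).2.symm
    exact ⟨u * g, L.mul_mem hu.1.1 hg, by rw [mul_smul, f1]; exact hu.1.2,
      by rw [mul_smul, f2]; exact hu.2, by rw [mul_smul, f3, k1], by rw [mul_smul, k2]⟩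
  obtain ⟨e2, u2, i2, p2, -⟩ := peel h2 o2 hc fc l2 u1 i1 hb2
  obtain ⟨n2, m2⟩ := mem_erase.mp (u1 hb2)
  have r : ¬ R (St (St L a) b) c s c b2 := fun k => (mem_sdiff.mp hb2).2 (mob.mpr ⟨m2, k⟩)
  rcases (((((D.erase a).erase b).erase c) \ ob (St (St L a) b) _ c s) \
    ob (St (St L a) b) _ c b2).eq_empty_or_nonempty with z | ⟨b3, hb3⟩
  · have al : ∀ y ∈ (D.erase a).erase b, y ≠ c → R (St (St L a) b) c y c s ∨
        R (St (St L a) b) c y c b2 := fun y hy yc => by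
      by_contra k
      have : y ∈ (∅ : Finset X) := z ▸ mem_sdiff.mpr ⟨mem_sdiff.mpr ⟨mem_erase.mpr ⟨yc, hy⟩,
        fun j => k (Or.inl (mob.mp j).2.symm)⟩, fun j => k (Or.inr (mob.mp j).2.symm)⟩
      simp at this
    have : df K (∅ : Finset X) = 0 := by simp [df, Fx]
    rw [z] at e2
    by_cases k : df K (ob (St (St L a) b) ((D.erase a).erase b) c s) = 1
    · exact mid ih h1 o1 t1 hb fb hc fc l2 s2 (sa c fc) m2 n2 k (by omega) al r (by omega)
    · exact mid ih h1 o1 t1 hb fb hc fc l2 m2 n2 s2 (sa c fc) (by omega) (by omega)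
        (fun y hy yc => (al y hy yc).symm) (fun j => r j.symm) (by omega)
  · refine all1 h2 o2 hc fc l2 (fun y hy yc => ?_) s2 (sa c fc) m2 n2 r (by omega) (by omega)
    have p3 := l2.inv _ u2 i2 ⟨b3, hb3⟩
    have ob1 : ∀ v, R (St (St L a) b) c v c y → ob (St (St L a) b) ((D.erase a).erase b) c y
        = ob (St (St L a) b) ((D.erase a).erase b) c v := fun v k => by
      ext; rw [mob, mob]; exact and_congr Iff.rfl ⟨k.trans, k.symm.trans⟩
    by_cases k1 : R (St (St L a) b) c s c y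
    · rw [ob1 _ k1]; omega
    by_cases k2 : R (St (St L a) b) c b2 c y
    · rw [ob1 _ k2]; omega
    obtain ⟨e3, u3, i3, p4, -⟩ := peel h2 o2 hc fc l2 u2 i2 (b := y) (mem_sdiff.mpr ⟨mem_sdiff.mpr
      ⟨mem_erase.mpr ⟨yc, hy⟩, fun j => k1 (mob.mp j).2⟩, fun j => k2 (mob.mp j).2⟩)
    rcases eq_empty_or_nonempty (_ \ ob (St (St L a) b) ((D.erase a).erase b) c y) with z | z
    · rw [z] at e3
      have : df K (∅ : Finset X) = 0 := by simp [df, Fx]
      omega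
    · have := l2.inv _ u3 i3 z
      omega

theorem claim [Finite G] (n : ℕ) : Claim K n := by
  classical
  induction n using Nat.strong_induction_on with
  | _ n ih =>
  intro X _ L D h o nt hn
  refine ⟨by by_contra c; exact d0 ih h o nt hn (by omega), fun d => ?_⟩
  obtain ⟨s, hs, ns⟩ := nt
  obtain ⟨a, ha⟩ : (Fx K D).Nonempty := card_pos.mp (by
    obtain ⟨k, hk, e⟩ : ∃ k ∈ K, k • s ≠ s := by simpa [fx] using ns
    have := one_lt_card.mpr ⟨s, hs, _, o.inv k (h.1 hk) s hs, e.symm⟩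
    unfold df at d; omega)
  obtain ⟨ha, fa⟩ := mFx.mp ha
  have l := loc ih h o hn ha fa (by
    by_contra c
    have := blk ih h o ⟨s, hs, ns⟩ hn ha fa (by omega)
    omega)
  have sa : s ≠ a := fun e => ns (e ▸ fa)
  refine tr2 o ha (b := s) fun b hb ba => ?_
  by_contra r
  have e0 := df_erase ha fa
  refine all1 h o ha fa l (fun y hy ya => ?_) hs sa hb ba r (by omega) (by omega)
  obtain ⟨e1, u1, i1, p1, t1⟩ := peel h o ha fa l Subset.rfl (o.inv.erase a) (mem_erase.mpr ⟨ya, hy⟩)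
  have : (D.erase a \ ob L D a y).Nonempty := by
    by_cases k : R L a y a s
    · exact ⟨b, t1 b (mem_erase.mpr ⟨ba, hb⟩) fun j => r (k.symm.trans j)⟩
    · exact ⟨s, t1 s (mem_erase.mpr ⟨sa, hs⟩) k⟩
  have := l.inv _ u1 i1 this
  omega

end H10.PF
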